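import Cfsg.Agent.C2.Cox
import Cfsg.Agent.BG.B8

/-! The Baby Monster and the Monster have `3`-rank at least four. -/

set_option autoImplicit false

namespace CF.QT
open Subgroup Cfsg Cfsg.Spor CF.BG CF.C2

theorem cox_rank {Γ : Type*} [Group Γ] (M : Subgroup Γ) [Finite M] {N : ℕ} (s t : Fin N → Γ)
    (hs : ∀ i, s i ^ 2 = 1) (ht : ∀ i, t i ^ 2 = 1) (h3 : ∀ i, (s i * t i) ^ 3 = 1) (ne : ∀ i, s i ≠ t i)
    (c : ∀ i j, i ≠ j → Commute (s i) (s j) ∧ Commute (s i) (t j) ∧ Commute (t i) (t j))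
    (m : ∀ i, s i * t i ∈ M) : N ≤ pRank 3 (⊤ : Subgroup M) := by
  have key : ∀ n ≤ N, ∃ A, Elem 3 n A (⊤ : Subgroup M) ∧
      ∀ j : Fin N, n ≤ j → A ≤ (𝐂₁ (s j) ⊓ 𝐂₁ (t j)).subgroupOf M := by
    intro n
    induction n with
    | zero => exact fun _ => ⟨⊥, elem_zero 3 _, fun _ _ => bot_le⟩
    | succ n ih =>
      intro hn
      obtain ⟨A, hA, l⟩ := ih (by omega)
      let i : Fin N := ⟨n, by omega⟩
      have nc : s i * t i ∉ 𝐂₁ (s i) := fun h => by
        have e : Commute (s i) (t i) := mul_left_cancel (a := s i) (by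
          rw [← mem_cent1.1 h, mul_assoc])
        exact ne i (eq_of_mul (ht i) (eq_one_of_cop (h3 i) (n := 2) (by rw [e.mul_pow, hs, ht, mul_one])))
      have a1 : (⟨_, m i⟩ : M) ≠ 1 := fun h => nc (by rw [show s i * t i = 1 from congrArg Subtype.val h]; exact one_mem _)
      refine ⟨A ⊔ zpowers ⟨_, m i⟩, hA.sup_one (elem_zpowers' Nat.prime_three (mem_top _) (Subtype.ext (h3 i)) a1)
        (cent_symm ?_) fun h => nc (l i le_rfl (h (mem_zpowers _))).1, fun j hj => sup_le (l j (by omega)) ?_⟩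
      · rw [cent_zpowers]
        intro x hx
        obtain ⟨x1, x2⟩ := l i le_rfl hx
        exact mem_cent1.2 (Subtype.ext (Commute.mul_right (mem_cent1.1 x1) (mem_cent1.1 x2)))
      · have ij : i ≠ j := fun e => by have : (j : ℕ) = n := e ▸ rfl; omega
        exact zpowers_le.2 ⟨mem_cent1.2 ((c i j ij).1.mul_left (c j i ij.symm).2.1.symm),
          mem_cent1.2 ((c i j ij).2.1.mul_left (c i j ij).2.2)⟩
  obtain ⟨A, hA, -⟩ := key N le_rfl
  exact hA.le_pRank

theorem cox_rank' {α : Type*} [DecidableEq α] {E : List (α × ℕ × α)} {X : List (FreeGroup α)}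
    (M : Subgroup (CoxPresented α E X)) [Finite M] (g : CoxPresented α E X) {N : ℕ} (σ τ : Fin N → α)
    (ne : ∀ i, gn E X (σ i) ≠ gn E X (τ i)) (m : ∀ i, g * (gn E X (σ i) * gn E X (τ i)) * g⁻¹ ∈ M)
    (h : (∀ i, σ i ∈ coxNodes E ∧ τ i ∈ coxNodes E ∧ coxLabel E (σ i) (τ i) = 3) ∧ ∀ i j, i ≠ j →
      coxLabel E (σ i) (σ j) = 2 ∧ coxLabel E (σ i) (τ j) = 2 ∧ coxLabel E (τ i) (τ j) = 2 := by decide) :
    N ≤ pRank 3 (⊤ : Subgroup M) := by
  let φ := MulAut.conj g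
  refine cox_rank M (fun i => φ (gn E X (σ i))) (fun i => φ (gn E X (τ i))) (fun i => ?_) (fun i => ?_) (fun i => ?_)
    (fun i e => ne i (φ.injective e)) (fun i j ij => ?_) fun i => by rw [← map_mul]; exact m i
  · rw [← map_pow, sq _ (h.1 i).1, map_one]
  · rw [← map_pow, sq _ (h.1 i).2.1, map_one]
  · rw [← map_mul, ← map_pow, rel _ _ 3 (h.1 i), map_one]
  · exact ⟨(cm _ _ ⟨(h.1 i).1, (h.1 j).1, (h.2 i j ij).1⟩).map φ,
      (cm _ _ ⟨(h.1 i).1, (h.1 j).2.1, (h.2 i j ij).2.1⟩).map φ,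
      (cm _ _ ⟨(h.1 i).2.1, (h.1 j).2.1, (h.2 i j ij).2.2⟩).map φ⟩

def okC {α : Type*} [DecidableEq α] (E : List (α × ℕ × α)) (s : α) : α → List α → Bool
  | _, [] => true
  | x, y :: l => decide (y ∈ coxNodes E ∧ x ∈ coxNodes E ∧ s ∈ coxNodes E ∧ coxLabel E x y = 3 ∧
      coxLabel E s y = 2) && okC E s y l

theorem chain {α : Type*} [DecidableEq α] {E : List (α × ℕ × α)} {X : List (FreeGroup α)} (s x : α) (l : List α)
    (y z : α) (e : gn E X x = gn E X s) (h : okC E s x l = true ∧ y ∈ l ∧ z ∈ l := by decide) :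
    gn E X y = gn E X z := by
  have key : ∀ (l : List α) x, gn E X x = gn E X s → okC E s x l = true → ∀ y ∈ l, gn E X y = gn E X s := by
    intro l
    induction l with
    | nil => simp
    | cons u l ih =>
      intro x e h y hy
      simp only [okC, Bool.and_eq_true, decide_eq_true_eq] at h
      have := step s x u e h.1
      rcases List.mem_cons.1 hy with rfl | hy
      exacts [this, ih u this h.2 y hy]
  rw [key l x e h.1 y h.2.1, key l x e h.1 z h.2.2]

theorem baby_col (h2 : gn BabyMonster.edges BabyMonster.extra .t2 = gn _ _ .t1) : IsMulCommutative BabyMonster := by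
  have h3 := step _ _ .t3 h2
  have h4 := step _ _ .t4 h3
  have h5 := step _ _ .t5 h4
  have h6 := step _ _ .t6 h5
  have h7 := step _ _ .t7 h6
  have h9 := step _ _ .t9 h5
  have h10 := step _ _ .t10 h9
  refine comm_of_eq .t1 fun x => ?_
  cases x
  exacts [rfl, h2, h3, h4, h5, h6, h7, step _ _ .t8 h7, h9, h10, step _ _ .t11 h10]

theorem baby_rank [Finite BabyMonster] (n : ¬ IsMulCommutative BabyMonster) :
    4 ≤ pRank 3 (⊤ : Subgroup BabyMonster) := by
  rw [← pRank_coe]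
  refine cox_rank' ⊤ 1 ![.t2, .t4, .t7, .t10] ![.t1, .t5, .t8, .t11] (fun i e => n (baby_col ?_)) fun _ => mem_top _
  fin_cases i
  exacts [e, chain .t5 .t4 [.t3, .t2, .t1] _ _ e, chain .t8 .t7 [.t6, .t5, .t4, .t3, .t2, .t1] _ _ e,
    chain .t11 .t10 [.t9, .t5, .t4, .t3, .t2, .t1] _ _ e]

theorem bi_col (e1 : gn Bimonster.edges Bimonster.extra .e1 = gn _ _ .f1) : IsMulCommutative Bimonster := by
  have d1 := step _ _ .d1 e1
  have c1 := step _ _ .c1 d1
  have b1 := step _ _ .b1 c1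
  have a := step _ _ .a b1
  have b2 := step _ _ .b2 a
  have c2 := step _ _ .c2 b2
  have d2 := step _ _ .d2 c2
  have e2 := step _ _ .e2 d2
  have b3 := step _ _ .b3 a
  have c3 := step _ _ .c3 b3
  have d3 := step _ _ .d3 c3
  have e3 := step _ _ .e3 d3
  refine comm_of_eq .f1 fun x => ?_
  cases x
  exacts [a, b1, c1, d1, e1, rfl, b2, c2, d2, e2, step _ _ .f2 e2, b3, c3, d3, e3, step _ _ .f3 e3]

theorem monster_rank [Finite Monster] (n : ¬ IsMulCommutative Monster) : 4 ≤ pRank 3 (⊤ : Subgroup Monster) := by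
  have n' : ¬ IsMulCommutative Bimonster := fun _ => n inferInstance
  refine cox_rank' _ (gn _ _ .b2 * gn _ _ .a) ![.e1, .c1, .e2, .e3] ![.f1, .b1, .f2, .f3]
    (fun i e => n' (bi_col ?_)) fun i => ⟨?_, Normal.conj_mem inferInstance _ ?_ _⟩
  · fin_cases i
    exacts [e, chain .b1 .c1 [.d1, .e1, .f1] _ _ e, chain .f2 .e2 [.d2, .c2, .b2, .a, .b1, .c1, .d1, .e1, .f1] _ _ e,
      chain .f3 .e3 [.d3, .c3, .b3, .a, .b1, .c1, .d1, .e1, .f1] _ _ e]
  · have e : gn Bimonster.edges Bimonster.extra .a =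
        (gn _ _ .b2 * gn _ _ .a) * gn _ _ .b2 * (gn _ _ .b2 * gn _ _ .a)⁻¹ := by
      rw [braid (sq (E := Bimonster.edges) .b2) (sq (E := Bimonster.edges) .a) (rel (E := Bimonster.edges) .b2 .a 3),
        mul_assoc (gn Bimonster.edges _ .a),
        mul_inv_cancel_right]
    refine mem_cent1.2 ?_
    refine (congrArg (Commute _) e).mpr ?_
    refine Commute.map (Commute.mul_left (cm _ _ ?_) (cm _ _ ?_)) 
      (MulAut.conj (gn Bimonster.edges _ .b2 * gn _ _ .a)) <;>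
      revert i <;> decide
  · rw [← Abelianization.ker_of, MonoidHom.mem_ker, map_mul, ab_eq _ (![.f1, .b1, .f2, .f3] i) (by revert i; decide), ← pow_two, ← map_pow,
      sq _ (by revert i; decide), map_one]

theorem rank_BM {X : Type*} [Group X] [Finite X] (n : ¬ IsMulCommutative X) (h : IsoB X ∨ IsoM X) :
    4 ≤ pRank 3 (⊤ : Subgroup X) := by
  have key : ∀ {Y : Type} [Group Y], (X ≃* Y) → (Finite Y → ¬ IsMulCommutative Y → 4 ≤ pRank 3 (⊤ : Subgroup Y)) →
      4 ≤ pRank 3 (⊤ : Subgroup X) := fun {Y} _ e k => by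
    have : Finite Y := .of_equiv _ e.toEquiv
    rw [pRank_congr 3 ⟨topEquiv.trans (e.trans topEquiv.symm)⟩]
    exact k this fun c => n ⟨⟨fun a b => e.injective (by rw [map_mul, map_mul, c.1.1])⟩⟩
  rcases h with ⟨⟨e⟩⟩ | ⟨⟨e⟩⟩
  exacts [key e fun _ => baby_rank, key e fun _ => monster_rank]

end CF.QT
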