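import Cfsg.Agent.QT.Push2

/-! Groups generated by two conjugates of an elementary abelian `2`-group, and their quadratic modules. -/

set_option autoImplicit false

namespace CF.QT

open Cfsg Subgroup CF.Loc CF.FF Function
open scoped commutatorElement

variable {G : Type*} [Group G] {A D L M Q V W X Y : Subgroup G} {a g w x y : G}

/-- the conclusion of the `L`-lemma -/
structure LS (L Q M A : Subgroup G) : Prop where
  pQ : IsPGroup 2 Q
  nQ : L ≤ 𝐍(Q)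
  ea : IsElementaryAbelian 2 A
  um : UMax (A ⊔ Q) M L
  wc : ∀ x ∈ L, cj[x] A ≤ M → x ∈ M
  core : ∀ a ∈ A, (∀ y ∈ L, a ∈ cj[y] M) → a ∈ Q

theorem card_ne {α : Type*} [Finite α] (a : α) : Nat.card {x // x ≠ a} + 1 = Nat.card α := by
  classical
  have := Fintype.ofFinite α
  have : 0 < Fintype.card α := Fintype.card_pos_iff.2 ⟨a⟩
  rw [Nat.card_eq_fintype_card, Nat.card_eq_fintype_card, Fintype.card_subtype_compl, Fintype.card_subtype_eq]
  omega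

theorem aux1 {r b : G} (e : r⁻¹ * a * w * (r⁻¹ * a)⁻¹ = r⁻¹ * b * w * (r⁻¹ * b)⁻¹) : a * w * a⁻¹ = b * w * b⁻¹ := by
  have := congrArg (fun x => r * x * r⁻¹) e
  simpa [mul_assoc] using this

theorem aux2 (e : a * a = 1) (k : a * w * a⁻¹ * w = w * (a * w * a⁻¹)) : a * (w * (a * w * a⁻¹)) = w * (a * w * a⁻¹) * a := by
  rw [show a * (w * (a * w * a⁻¹)) = a * w * a⁻¹ * (a * a) * w * a⁻¹ by group, e, mul_one, k, inv_eq_of_mul_eq_one_right e]

namespace LS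
variable (h : LS L Q M A)
include h

theorem AM : A ≤ M := le_sup_left.trans h.um.le
theorem QM : Q ≤ M := le_sup_right.trans h.um.le
theorem ML : M ≤ L := h.um.lt.le
theorem AL : A ≤ L := h.AM.trans h.ML
theorem QL : Q ≤ L := h.QM.trans h.ML
theorem ab : A ≤ 𝐂(A) := isElemAb_le_centralizer h.ea
theorem sq (ha : a ∈ A) : a * a = 1 := (pow_two a).symm.trans ((isElementaryAbelian_iff.1 h.ea).2 a ha)

theorem le_of (h1 : A ≤ D) (h2 : Q ≤ D) (hg : g ∈ L) (g0 : g ∉ M) (hD : g ∈ D) : L ≤ D :=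
  (h.um.eq_of_not_le (le_inf (sup_le h1 h2) (sup_le h.AL h.QL)) inf_le_right fun e => g0 (e ⟨hD, hg⟩)).ge.trans inf_le_left

theorem exists_not_mem : ∃ x ∈ L, x ∉ M := SetLike.not_le_iff_exists.1 h.um.lt.not_ge

theorem exists_cj (hx : x ∈ L) (x0 : x ∉ M) : ∃ g ∈ cj[x] A, g ∉ M := SetLike.not_le_iff_exists.1 (mt (h.wc x hx) x0)

protected theorem cj (hy : y ∈ L) : LS L Q (cj[y] M) (cj[y] A) := by
  refine ⟨h.pQ, h.nQ, isElemAb_cj y h.ea, ?_, fun x hx e => ?_, fun a ha e => ?_⟩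
  · have := h.um.cj_of_mem hy
    rwa [cj_sup, cj_eq_self (h.nQ hy)] at this
  · rw [mem_cj]
    refine h.wc _ (mul_mem (mul_mem (inv_mem hy) hx) hy) ?_
    rwa [cj_mul, cj_mul, ← le_cj_iff]
  · rw [← cj_eq_self (h.nQ hy), mem_cj]
    refine h.core _ (mem_cj.1 ha) fun z hz => ?_
    have := e (y * z * y⁻¹) (mul_mem (mul_mem hy hz) (inv_mem hy))
    rwa [← cj_mul, inv_mul_cancel_right, cj_mul, mem_cj] at this

theorem ncl_sup : L ≤ ncl A L ⊔ Q := by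
  obtain ⟨x, hx, x0⟩ := h.exists_not_mem
  obtain ⟨g, hg, g0⟩ := h.exists_cj hx x0
  exact h.le_of (le_sup_of_le_left (le_ncl _ _)) le_sup_right (cj_le_of_mem hx h.AL hg) g0 (mem_sup_left (cj_le_ncl hx hg))

theorem res_le : 𝐑[2](L) ≤ ncl A L :=
  (pResidualOf_mono h.ncl_sup).trans (pResidualOf_sup_le h.pQ (h.QL.trans (le_normalizer_ncl _ _)))

theorem not_le : ¬ A ≤ Q := fun e => by
  obtain ⟨x, hx, x0⟩ := h.exists_not_mem
  exact x0 (h.wc x hx ((cj_le_of_mem_normalizer (h.nQ hx) e).trans h.QM))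

theorem pAQ : IsPGroup 2 ↥(A ⊔ Q) :=
  IsPGroup.to_sup_of_normal_right' (isElemAb_isPGroup h.ea) h.pQ (h.AL.trans h.nQ)

theorem res_or [Finite G] : 𝐑[2](L) = ⊥ ∨ ∃ g ∈ 𝐑[2](L), g ∉ M := by
  obtain ⟨S, hS, l⟩ := exists_isSyl_ge h.pAQ (sup_le h.AL h.QL)
  by_cases e : S = L
  · exact .inl (pResidualOf_eq_bot_of_isPGroup (e ▸ hS.isPGroup))
  · exact .inr (SetLike.not_le_iff_exists.1 fun k => h.um.lt.not_ge (hS.pResidualOf_sup.ge.trans
      (sup_le k (h.um.le_of_ne l hS.le e))))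

protected theorem map {G' : Type*} [Group G'] {f : G →* G'} (k : f.ker ≤ Q) : LS (L.map f) (Q.map f) (M.map f) (A.map f) := by
  have kM := k.trans h.QM
  refine ⟨h.pQ.map f, (map_mono h.nQ).trans (le_normalizer_map f), isElemAb_map f h.ea, ?_, ?_, ?_⟩
  · rw [← Subgroup.map_sup]; exact h.um.map f (inf_le_right.trans kM)
  · rintro _ ⟨x, hx, rfl⟩ e
    rw [← map_cj, Subgroup.map_le_map_iff, sup_eq_left.2 kM] at e
    exact mem_map_of_mem f (h.wc x hx e)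
  · rintro _ ⟨a, ha, rfl⟩ e
    refine mem_map_of_mem f (h.core a ha fun y hy => ?_)
    have := e _ (mem_map_of_mem f hy)
    rwa [← map_cj, ← mem_comap, comap_map_eq_self (k.trans (h.cj hy).QM)] at this

theorem sub : LS ⊤ (Q.subgroupOf L) (M.subgroupOf L) (A.subgroupOf L) := by
  refine ⟨isPGroup_subgroupOf h.pQ, fun x _ => le_normalizer_comap _ (h.nQ x.2), isElemAb_subgroupOf h.ea L,
    uMax_map_subtype_iff.1 ?_, fun x _ e => h.wc x x.2 fun a ha => ?_, fun a ha e => h.core a ha fun y hy => ?_⟩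
  · rw [Subgroup.map_sup, map_subgroupOf_eq_of_le h.AL, map_subgroupOf_eq_of_le h.QL, map_subgroupOf_eq_of_le h.ML,
      ← MonoidHom.range_eq_map, range_subtype]
    exact h.um
  · rw [← subgroupOf_cj] at e
    exact e (x := ⟨a, cj_le_of_mem x.2 h.AL ha⟩) ha
  · have := e ⟨y, hy⟩ (mem_top _)
    rwa [← subgroupOf_cj] at this

/-- passing to the normal closure of `A` -/
theorem toNcl : LS (ncl A L) (Q ⊓ ncl A L) (M ⊓ ncl A L) A := by
  have l := ncl_le_of_le h.AL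
  have n := le_normalizer_ncl A L
  refine ⟨h.pQ.to_le inf_le_left, le_normalizer_inf (l.trans h.nQ) le_normalizer, h.ea,
    ⟨sup_le (le_inf h.AM (le_ncl _ _)) (inf_le_inf_right _ h.QM), lt_of_le_not_ge inf_le_right fun e =>
      h.um.lt.not_ge (h.ncl_sup.trans (sup_le (e.trans inf_le_left) h.QM)), fun X a b => le_inf ?_ b.le⟩,
    fun x hx e => ⟨h.wc x (l hx) (e.trans inf_le_left), hx⟩, fun a ha e => ⟨h.core a ha fun y hy => ?_, le_ncl _ _ ha⟩⟩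
  · refine le_sup_right.trans (h.um.le_of_ne (X := Q ⊔ X) (sup_le ((le_sup_left.trans a).trans le_sup_right) le_sup_left)
      (sup_le h.QL (b.le.trans l)) fun e => b.not_ge ?_)
    have := sup_inf_of_le_normalizer_right ((b.le.trans l).trans h.nQ) b.le
    rw [e, inf_eq_right.2 l] at this
    exact this.le.trans (sup_le (le_sup_right.trans a) le_rfl)
  · obtain ⟨i, hi, q, hq, rfl⟩ := (mem_sup_of_le_normalizer (h.QL.trans n)).1 (h.ncl_sup hy)
    rw [cj_mul, cj_eq_self_of_mem (h.QM hq)]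
    exact cj_mono i inf_le_left (e i hi)

theorem mem_of_cent (c : Q ≤ 𝐂(W)) (z : W ⊓ 𝐂(L) = ⊥) (hw : w ∈ W) (w1 : w ≠ 1) (hA : w ∈ 𝐂(A)) (hg : g ∈ L)
    (e : g * w = w * g) : g ∈ M := by
  by_contra g0
  have := h.le_of (D := 𝐂(zpowers w)) (le_centralizer_comm.1 (zpowers_le.2 hA)) (c.trans (centralizer_anti (zpowers_le.2 hw)))
    hg g0 (mem_cent_zp.2 (by rw [e, mul_inv_cancel_right]))
  exact w1 (mem_bot.1 (z.le ⟨hw, le_centralizer_comm.1 this (mem_zpowers w)⟩))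

end LS

/-- a quadratic module generated by the conjugates of `V` -/
structure SH (L Q M A V W : Subgroup G) : Prop extends LS L Q M A where
  eW : IsElementaryAbelian 2 W
  WQ : W ≤ Q
  eq : ncl V L = W
  quad : ⁅W, A⁆ ≤ 𝐂(A)
  cV : V ≤ 𝐂(A)
  nV : M ≤ 𝐍(V)

namespace SH
variable (h : SH L Q M A V W)
include h

theorem nW : L ≤ 𝐍(W) := h.eq ▸ le_normalizer_ncl V L
theorem VW : V ≤ W := h.eq ▸ le_ncl V L
theorem abW : W ≤ 𝐂(W) := isElemAb_le_centralizer h.eW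
theorem W_le (h1 : V ≤ D) (h2 : L ≤ 𝐍(D)) : W ≤ D := h.eq ▸ ncl_le h1 h2

protected theorem cj (hy : y ∈ L) : SH L Q (cj[y] M) (cj[y] A) (cj[y] V) W := by
  refine ⟨h.toLS.cj hy, h.eW, h.WQ, (ncl_cj hy).trans h.eq, ?_, ?_, ?_⟩
  · rw [← cj_eq_self (h.nW hy), ← cj_commutator, ← cj_centralizer]; exact cj_mono y h.quad
  · rw [← cj_centralizer]; exact cj_mono y h.cV
  · rw [← cj_normalizer]; exact cj_mono y h.nV

protected theorem map {G' : Type*} [Group G'] {f : G →* G'} (k : f.ker ≤ Q) :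
    SH (L.map f) (Q.map f) (M.map f) (A.map f) (V.map f) (W.map f) :=
  ⟨h.toLS.map k, isElemAb_map f h.eW, map_mono h.WQ, by rw [← map_ncl, h.eq],
    by rw [← map_commutator]; exact map_le_cent_iff f |>.2 (comm_le_of_cent h.quad),
    map_le_cent_iff f |>.2 (comm_le_of_cent h.cV), (map_mono h.nV).trans (le_normalizer_map f)⟩

theorem sub : SH ⊤ (Q.subgroupOf L) (M.subgroupOf L) (A.subgroupOf L) (V.subgroupOf L) (W.subgroupOf L) := by
  have l := h.WQ.trans h.QL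
  refine ⟨h.toLS.sub, isElemAb_subgroupOf h.eW L, comap_mono h.WQ, ?_, ?_, ?_, fun x hx => le_normalizer_comap _ (h.nV hx)⟩
  · rw [ncl_top, ← ncl_subgroupOf (h.VW.trans l), h.eq]
  · rw [← subgroupOf_commutator l h.AL, centralizer_subgroupOf h.AL]; exact comap_mono h.quad
  · rw [centralizer_subgroupOf h.AL]; exact comap_mono h.cV

theorem toNcl (l : V ≤ A) : SH (ncl A L) (Q ⊓ ncl A L) (M ⊓ ncl A L) A V W :=
  ⟨h.toLS.toNcl, h.eW, le_inf h.WQ (h.eq ▸ ncl_mono l le_rfl), (ncl_eq_of_forall_mul (ncl_le_of_le h.AL) fun g hg =>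
    let ⟨i, hi, q, hq, e⟩ := (mem_sup_of_le_normalizer (h.QL.trans (le_normalizer_ncl A L))).1 (h.ncl_sup hg)
    ⟨i, hi, q, h.nV (h.QM hq), e.symm⟩).symm.trans h.eq, h.quad, h.cV, inf_le_left.trans h.nV⟩

variable (c : Q ≤ 𝐂(W)) (z : W ⊓ 𝐂(L) = ⊥)
include c z

theorem cent_of (ha : a ∈ A) (a0 : a ∉ Q) (hw : w ∈ W) (e : a * w = w * a) : w ∈ 𝐂(A) := by
  obtain ⟨y, hy, y0⟩ : ∃ y ∈ L, a ∉ cj[y] M := by by_contra! k; exact a0 (h.core a ha k)
  have h' := h.cj hy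
  have n : ∀ {M A V}, SH L Q M A V W → ∀ D, W ⊓ 𝐂(A) ≤ D → D ≤ W → A ≤ 𝐍(D) := fun h D a b =>
    le_normalizer_iff_commutator_le_left.2 ((commutator_mono b le_rfl).trans ((le_inf
      (commutator_le_left_of_le_normalizer (h.AL.trans h.nW)) h.quad).trans a))
  have l : W ⊓ 𝐂(A) ⊔ W ⊓ 𝐂(cj[y] A) ≤ W := sup_le inf_le_left inf_le_left
  obtain ⟨u, hu, v, hv, rfl⟩ := (mem_sup_of_le_normalizer (inf_le_left.trans (h.abW.trans
    (centralizer_le_normalizer_of_le inf_le_left)))).1 (h'.W_le (le_sup_of_le_right (le_inf h'.VW h'.cV))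
      (h'.le_of (n h' _ le_sup_right l) (c.trans (centralizer_le_normalizer_of_le l)) (h.AL ha) y0
        (n h _ le_sup_left l ha)) hw)
  by_cases v1 : v = 1
  · rw [v1, mul_one]; exact hu.2
  · exact absurd (h'.mem_of_cent c z hv.1 v1 hv.2 (h.AL ha) (by
      rwa [← mul_assoc, hu.2 a ha, mul_assoc, mul_assoc, mul_right_inj] at e)) y0

theorem not_comm (hx : x ∈ L) (x0 : x ∉ M) (ha : a ∈ cj[x] A) (a0 : a ∉ Q) (hw : w ∈ V) (w1 : w ≠ 1) : a * w ≠ w * a := fun e => by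
  obtain ⟨g, hg, g0⟩ := h.exists_cj hx x0
  exact g0 (h.mem_of_cent c z (h.VW hw) w1 (h.cV hw) ((h.cj hx).AL hg) ((h.cj hx).cent_of c z ha a0 (h.VW hw) e g hg))

variable [Finite G]

theorem inf_le (v0 : V ≠ ⊥) (hx : x ∈ L) (x0 : x ∉ M) : cj[x] A ⊓ M ≤ Q := fun a ha => by
  by_contra a0
  obtain ⟨⟨w, hw⟩, w1⟩ := ne_bot_iff_exists_ne_one.1 (inf_centralizer_ne_bot (isElemAb_isPGroup (isElemAb_of_le h.eW h.VW))
    ((isElemAb_isPGroup (h.cj hx).ea).to_le (zpowers_le.2 ha.1)) (zpowers_le.2 (h.nV ha.2)) v0)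
  exact h.not_comm c z hx x0 ha.1 a0 hw.1 (fun e => w1 (Subtype.ext e)) (hw.2 a (mem_zpowers a))

theorem star (v0 : V ≠ ⊥) : Q.relIndex A ≤ Nat.card V := by
  obtain ⟨⟨v, hv⟩, v1⟩ := ne_bot_iff_exists_ne_one.1 v0
  replace v1 : v ≠ 1 := fun e => v1 (Subtype.ext e)
  let Ω := L ⧸ M.subgroupOf L
  let A' := A ⧸ Q.subgroupOf A
  have mΩ : ∀ {a b : L}, (a : Ω) = b ↔ (a : G)⁻¹ * b ∈ M := QuotientGroup.eq
  have mA : ∀ {a b : A}, (a : A') = b ↔ (a : G)⁻¹ * b ∈ Q := QuotientGroup.eq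
  have oΩ : ∀ s : Ω, s ≠ ((1 : L) : Ω) → (s.out : G) ∉ M := fun s hs e =>
    hs (s.out_eq'.symm.trans (mΩ.2 (by simpa using e)))
  have oA : ∀ s : A', s ≠ ((1 : A) : A') → (s.out : G) ∉ Q := fun s hs e =>
    hs (s.out_eq'.symm.trans (mA.2 (by simpa using e)))
  let α : Ω → A' → L := fun s t => ⟨s.out * t.out * (s.out : G)⁻¹, mul_mem (mul_mem s.out.2 (h.AL t.out.2)) (inv_mem s.out.2)⟩
  have αA : ∀ s t, (α s t : G) ∈ cj[(s.out : G)] A := fun s t => conj_mem_cj _ t.out.2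
  have αQ : ∀ s t, t ≠ ((1 : A) : A') → (α s t : G) ∉ Q := fun s t ht e =>
    oA t ht (by simpa [α, mul_assoc] using conj_mem_of_mem_normalizer' (h.nQ s.out.2) e)
  have αm : ∀ s t, (((α s t : L) : Ω).out : G)⁻¹ * α s t ∈ M := fun s t => mΩ.1 (QuotientGroup.out_eq' _)
  let φ : {s : Ω // s ≠ ((1 : L) : Ω)} × {t : A' // t ≠ ((1 : A) : A')} → {s : Ω // s ≠ ((1 : L) : Ω)} × {u : V // u ≠ 1} :=
    fun p => (⟨(α p.1 p.2 : Ω), fun e => αQ _ _ p.2.2 (h.inf_le c z v0 p.1.1.out.2 (oΩ _ p.1.2) ⟨αA _ _, by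
      simpa using mΩ.1 e.symm⟩)⟩, ⟨⟨_, conj_mem_of_mem_normalizer (h.nV (αm p.1 p.2)) hv⟩, fun e => v1
        (conj_eq_one_iff.1 (congrArg Subtype.val e))⟩)
  have φi : Injective φ := by
    rintro ⟨⟨s, hs⟩, t, ht⟩ ⟨⟨s', hs'⟩, t', ht'⟩ e
    have e1 : (α s t : Ω) = α s' t' := congrArg (fun p => p.1.1) e
    have e2 := congrArg (fun p => p.2.1.1) e
    simp only [φ] at e2
    rw [e1] at e2
    replace e2 : (α s t : G) * v * (α s t : G)⁻¹ = α s' t' * v * (α s' t' : G)⁻¹ := aux1 e2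
    have fx : ∀ s t, (α s t : G) * (v * (α s t * v * (α s t : G)⁻¹)) = v * (α s t * v * (α s t : G)⁻¹) * α s t := fun s t =>
      aux2 ((h.cj s.out.2).sq (αA s t)) (h.abW (h.VW hv) _ (conj_mem_of_mem_normalizer (h.nW (α s t).2) (h.VW hv)))
    have wW : v * (α s t * v * (α s t : G)⁻¹) ∈ W := mul_mem (h.VW hv) (conj_mem_of_mem_normalizer (h.nW (α s t).2) (h.VW hv))
    have w1 : v * (α s t * v * (α s t : G)⁻¹) ≠ 1 := fun e => h.not_comm c z s.out.2 (oΩ s hs) (αA s t) (αQ s t ht) hv v1 (by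
      have := (isElementaryAbelian_iff.1 h.eW).2 v (h.VW hv)
      rw [← this, pow_two, mul_right_inj, mul_inv_eq_iff_eq_mul] at e; exact e)
    have c1 := (h.cj s.out.2).cent_of c z (αA s t) (αQ s t ht) wW (fx s t)
    have c2 := (h.cj s'.out.2).cent_of c z (αA s' t') (αQ s' t' ht') wW (e2 ▸ fx s' t')
    obtain rfl : s = s' := by
      refine s.out_eq'.symm.trans (Eq.trans (mΩ.2 (h.wc _ (mul_mem (inv_mem s.out.2) s'.out.2) ?_)) s'.out_eq')
      rw [cj_mul, ← le_cj_iff]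
      exact fun g hg => (h.cj s.out.2).mem_of_cent c z wW w1 c1 ((h.cj s'.out.2).AL hg) (c2 g hg)
    obtain rfl : t = t' := by
      refine t.out_eq'.symm.trans (Eq.trans (mA.2 ?_) t'.out_eq')
      by_contra k
      refine h.not_comm c z s.out.2 (oΩ s hs) (mul_mem (inv_mem (αA s t)) (αA s t')) (fun e => k ?_) hv v1 ?_
      · simpa [α, mul_assoc] using conj_mem_of_mem_normalizer' (h.nQ s.out.2) e
      · rw [mul_assoc, mul_inv_eq_iff_eq_mul.1 e2.symm]; group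
    rfl
  have k := Nat.card_le_card_of_injective φ φi
  obtain ⟨x, hx, x0⟩ := h.exists_not_mem
  have : Nonempty {s : Ω // s ≠ ((1 : L) : Ω)} := ⟨⟨(⟨x, hx⟩ : L), fun e => x0 (by simpa using mΩ.1 e.symm)⟩⟩
  rw [Nat.card_prod, Nat.card_prod] at k
  have := Nat.le_of_mul_le_mul_left k Nat.card_pos
  have e1 := card_ne ((1 : A) : A')
  have e2 := card_ne (1 : V)
  exact e1.ge.trans ((Nat.succ_le_succ this).trans e2.le)

end SH

theorem relIndex_anti [Finite G] (h : X ≤ Y) (L : Subgroup G) : Y.relIndex L ≤ X.relIndex L :=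
  relIndex_le_of_le_left h index_ne_zero_of_finite

theorem relIndex_mono [Finite G] (h : X ≤ Y) (L : Subgroup G) : L.relIndex X ≤ L.relIndex Y :=
  relIndex_le_of_le_right h index_ne_zero_of_finite

theorem SH.le_sup [Finite G] (h : SH L Q M A V W) (hY : Y ≤ W) (nY : L ≤ 𝐍(Y)) (c : ⁅W, 𝐑[2](L)⁆ ≤ Y) (r : 𝐑[2](L) ≠ ⊥) :
    W ≤ V ⊔ Y := by
  obtain ⟨g, hg, g0⟩ := h.res_or.resolve_left r
  exact h.W_le le_sup_left (h.le_of (le_normalizer_sup (h.AM.trans h.nV) (h.AL.trans nY))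
    (le_normalizer_sup (h.QM.trans h.nV) (h.QL.trans nY)) (pResidualOf_le 2 L hg) g0 (le_normalizer_iff_commutator_le_left.2
      ((commutator_mono (sup_le h.VW hY) le_rfl).trans (c.trans le_sup_right)) hg))

theorem SH.star_top [Finite G] (h : SH ⊤ Q M A V W) (hY : Y ≤ W) (nY : ⊤ ≤ 𝐍(Y)) (c : ¬ ⁅W, 𝐑[2](⊤)⁆ ≤ Y) :
    Q.relIndex A ≤ (Y ⊔ ⁅W, Q⁆).relIndex V ∧ ∀ x ∉ M, cj[x] A ⊓ M ≤ Q := by
  have n1 : ⊤ ≤ 𝐍(Y ⊔ ⁅W, Q⁆) := le_normalizer_sup nY (le_normalizer_commutator h.nW h.nQ)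
  have l1 : Y ⊔ ⁅W, Q⁆ ≤ W := sup_le hY (commutator_le_left_of_le_normalizer (le_top.trans h.nW))
  have c1 : ¬ ⁅W, 𝐑[2](⊤)⁆ ≤ Y ⊔ ⁅W, Q⁆ := fun e => by
    have k := h.le_sup l1 n1 e fun e => c (by rw [e, commutator_bot_right]; exact bot_le)
    rw [← sup_assoc, sup_comm] at k
    replace k := le_of_le_commutator_sup h.pQ h.WQ le_rfl (le_normalizer_sup (h.QM.trans h.nV) (le_top.trans nY)) k
    refine c (le_secCent_iff.1 (h.res_le.trans (ncl_le (le_secCent_iff.2 ⟨le_top.trans nY, (commutator_mono k le_rfl).trans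
      (commutator_sup_left_le (le_top.trans nY) (le_top.trans nY) (comm_le_of_cent h.cV)
        (commutator_le_left_of_le_normalizer (le_top.trans nY)))⟩) (le_normalizer_secCent h.nW nY)))).2
  set Y₁ := Y ⊔ ⁅W, Q⁆
  have : (W ⊓ secCent 𝐑[2](⊤) Y₁).Normal := normal_of_top_le_normalizer (le_normalizer_inf h.nW
    (le_normalizer_secCent (le_normalizer_pResidualOf 2 ⊤) n1))
  have l2 : Y₁ ≤ W ⊓ secCent 𝐑[2](⊤) Y₁ := le_inf l1 (le_secCent_iff.2 ⟨le_normalizer,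
    commutator_le_right_of_le_normalizer (le_top.trans n1)⟩)
  let f := QuotientGroup.mk' (W ⊓ secCent 𝐑[2](⊤) Y₁)
  have kf : f.ker = W ⊓ secCent 𝐑[2](⊤) Y₁ := QuotientGroup.ker_mk' _
  have k : f.ker ≤ Q := kf.le.trans (inf_le_left.trans h.WQ)
  have h' := h.map k
  have c' : Q.map f ≤ 𝐂(W.map f) := (map_le_cent_iff f).2 (by rw [commutator_comm, kf]; exact le_sup_right.trans l2)
  have z' : W.map f ⊓ 𝐂(map f ⊤) = ⊥ := eq_bot_iff.2 (by
    rintro _ ⟨⟨w, hw, rfl⟩, e⟩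
    have e1 : ⁅zpowers w, ⊤⁆ ≤ f.ker := (map_le_cent_iff f).1 (by rwa [MonoidHom.map_zpowers, zpowers_le])
    have := commutator_pResidualOf_le (exists_pow_mem_of_isPGroup (h.pQ.to_le k) Y₁) ((commutator_mono le_rfl le_top).trans e1)
      (by rw [commutator_comm, kf]; exact (le_secCent_iff.1 inf_le_right).2) (le_top.trans n1) (le_top.trans n1)
    rw [pResidualOf_pResidualOf, commutator_comm] at this
    exact kf.ge ⟨hw, le_secCent_iff.2 ⟨le_top.trans n1, this⟩ (mem_zpowers w)⟩)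
  have v0 : V.map f ≠ ⊥ := fun e => c1 (by
    rw [commutator_comm]
    exact (le_secCent_iff.1 ((h.W_le (((Subgroup.map_eq_bot_iff _).1 e).trans kf.le)
      le_normalizer_of_normal).trans inf_le_right)).2)
  refine ⟨?_, fun x x0 a ha => ?_⟩
  · have := h'.star c' z' v0
    rw [← relIndex_comap, comap_map_eq_self k, ← relIndex_ker, kf] at this
    exact this.trans (relIndex_anti l2 V)
  · have := h'.inf_le c' z' v0 (mem_map_of_mem f (mem_top x)) (by rwa [← mem_comap, comap_map_eq_self (k.trans h.QM)])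
      ⟨map_cj f x A ▸ mem_map_of_mem f ha.1, mem_map_of_mem f ha.2⟩
    rwa [← mem_comap, comap_map_eq_self k] at this

theorem SH.star' [Finite G] (h : SH L Q M A V W) (hY : Y ≤ W) (nY : L ≤ 𝐍(Y)) (c : ¬ ⁅W, 𝐑[2](L)⁆ ≤ Y) :
    Q.relIndex A ≤ (Y ⊔ ⁅W, Q⁆).relIndex V ∧ ∀ x ∈ L, x ∉ M → cj[x] A ⊓ M ≤ Q := by
  have l := h.WQ.trans h.QL
  have e : 𝐑[2]((⊤ : Subgroup L)) = 𝐑[2](L).subgroupOf L := by rw [pResidualOf_top, pResidualOf_subgroupOf]
  obtain ⟨a, b⟩ := h.sub.star_top (Y := Y.subgroupOf L) (comap_mono hY) (fun x _ => le_normalizer_comap _ (nY x.2)) fun k => c (by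
    rw [e, ← subgroupOf_commutator l (pResidualOf_le 2 L)] at k
    exact fun x hx => k (x := ⟨x, commutator_le_self L (commutator_mono l (pResidualOf_le 2 L) hx)⟩) hx)
  refine ⟨?_, fun x hx x0 g hg => @b ⟨x, hx⟩ x0 ⟨g, h.ML hg.2⟩ ⟨by rw [← subgroupOf_cj]; exact hg.1, hg.2⟩⟩
  rwa [← subgroupOf_commutator l h.QL, ← subgroupOf_sup (hY.trans l) (commutator_le_self L |>.trans' (commutator_mono l h.QL)),
    relIndex_subgroupOf h.AL, relIndex_subgroupOf (h.VW.trans l)] at a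

end CF.QT
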