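import Cfsg.Agent.QT.Push
import Cfsg.Agent.Loc.SPE
import Cfsg.Prelude.Def_QuasithinSetup

/-! The set `ℒ_f(G, T)` is closed under taking overgroups in `ℒ(G, T)`. -/

set_option autoImplicit false

namespace CF.QT

open Cfsg Subgroup CF.Loc CF.FF Function
open scoped commutatorElement

variable {G : Type*} [Group G] {H K L T : Subgroup G}

theorem perf_of_subgroupOf (l : L ≤ H) (h : ⁅L.subgroupOf H, L.subgroupOf H⁆ = L.subgroupOf H) : ⁅L, L⁆ = L := by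
  have := congrArg (map H.subtype) h
  rwa [map_commutator, subgroupOf_map_subtype, inf_eq_left.2 l] at this

theorem calL_basic (h : L ∈ calL T) : L ≠ ⊥ ∧ ⁅L, L⁆ = L ∧ Sn L (L ⊔ T) ∧ 𝐎[2](L ⊔ T) ≠ ⊥ :=
  ⟨fun e => h.1.1 (by rw [e, bot_subgroupOf]), perf_of_subgroupOf le_sup_left h.1.2.1,
    sn_iff.2 ⟨le_sup_left, h.1.2.2.1⟩, fun e => h.2.2 (pCoreOf_eq_bot_iff.1 e)⟩

variable [Finite G]

/-- a subnormal subgroup `L = O²(L)` moving `Ω₁(Z(O₂(L)))` moves `Ω₁(Z(O₂(H)))`, and conversely -/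
theorem cent_omega_iff (s : Sn L H) (r : 𝐑[2](L) = L) : L ≤ 𝐂(𝛀[2](𝐎[2](L))) ↔ L ≤ 𝐂(𝛀[2](𝐎[2](H))) := by
  have nL : 𝐎[2](H) ≤ 𝐍(L) := r ▸ s.pCoreOf_le_normalizer
  have c : ⁅𝐎[2](H), L⁆ ≤ 𝐎[2](L) := by
    rw [s.pCoreOf_eq]
    exact le_inf (commutator_le_right_of_le_normalizer nL)
      (commutator_le_left_of_le_normalizer (s.le.trans (le_normalizer_pCoreOf 2 H)))
  have nW : L ≤ 𝐍(𝛀[2](𝐎[2](H))) := s.le.trans ((le_normalizer_pCoreOf 2 H).trans
    (normalizer_le_normalizer_omegaOneCenter 2 _))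
  constructor
  · intro h
    have l : ⁅𝛀[2](𝐎[2](H)), L⁆ ≤ 𝛀[2](𝐎[2](L)) := by
      have l1 := commutator_le_left_of_le_normalizer nW
      exact le_omegaOneCenter (isElemAb_of_le (isElemAb_omegaOneCenter 2 _) l1)
        ((commutator_mono (omegaOneCenter_le 2 _) le_rfl).trans c)
        (l1.trans ((omegaOneCenter_le_centralizer 2 _).trans (centralizer_anti s.pCoreOf_le)))
    rw [← commutator_eq_bot_iff_le_centralizer', ← commutator_commutator_eq_of_pResidualOf_eq r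
      ((isElemAb_isPGroup (isElemAb_omegaOneCenter 2 _)).to_le l), commutator_eq_bot_iff_le_centralizer']
    exact h.trans (centralizer_anti l)
  · intro h
    have nU : ∀ X, X ≤ 𝐍(L) → X ≤ 𝐍(𝛀[2](𝐎[2](L))) := fun X hX => hX.trans
      ((normalizer_le_normalizer_pCoreOf 2 L).trans (normalizer_le_normalizer_omegaOneCenter 2 _))
    have eU := isElemAb_omegaOneCenter 2 𝐎[2](L)
    refine r.ge.trans (thompson_PxQ' (isElemAb_isPGroup eU) (A := 𝐎[2](H))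
      (by rw [pResidualOf_eq_bot_of_isPGroup (isPGroup_pCoreOf 2 H)]; exact bot_le) (nU _ nL) (nU _ le_normalizer)
      (s.le.trans (le_normalizer_pCoreOf 2 H)) (c.trans (le_centralizer_omegaOneCenter 2 _))
      (h.trans (centralizer_anti (le_omegaOneCenter (isElemAb_of_le eU inf_le_left)
        (inf_le_left.trans ((omegaOneCenter_le 2 _).trans s.pCoreOf_le)) inf_le_right))))

theorem moduleV_ne_bot_iff : moduleV L ≠ ⊥ ↔ ¬ L ≤ 𝐂(𝛀[2](𝐎[2](L))) :=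
  not_congr commutator_eq_bot_iff_le_centralizer'

theorem calL_mem_calX (pc : ParChar 2 G) (hT : IsSyl 2 T ⊤) (h : L ∈ calL T) : L ∈ calX G := by
  obtain ⟨h1, h2, h3, h4⟩ := calL_basic h
  exact ⟨h1, (odd_eq L).trans (pResidualOf_eq_self_of_perfect h2),
    isCharP_iff_fstar.1 ((pc.isCharP hT le_sup_right h4).of_sn h3)⟩

theorem calLf_of_le (pc : ParChar 2 G) (hT : IsSyl 2 T ⊤) (h : L ∈ calLf T) (k : K ∈ calL T) (l : L ≤ K) :
    K ∈ calLf T := by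
  obtain ⟨-, h2, h3, -⟩ := calL_basic h.1
  obtain ⟨-, k2, k3, k4⟩ := calL_basic k
  refine ⟨k, calL_mem_calX pc hT k, moduleV_ne_bot_iff.2 fun c => moduleV_ne_bot_iff.1 h.2.2 ?_⟩
  rw [cent_omega_iff h3 (pResidualOf_eq_self_of_perfect h2)]
  rw [cent_omega_iff k3 (pResidualOf_eq_self_of_perfect k2)] at c
  have l' : L ⊔ T ≤ K ⊔ T := sup_le_sup_right l T
  have o : 𝐎[2](K ⊔ T) ≤ 𝐎[2](L ⊔ T) := pCoreOf_le_pCoreOf_of_le l'
    ((hT.mono le_sup_right le_top).pCoreOf_le.trans le_sup_right)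
  have z : 𝛀[2](𝐎[2](L ⊔ T)) ≤ 𝐂(𝐎[2](K ⊔ T)) := (omegaOneCenter_le_centralizer 2 _).trans (centralizer_anti o)
  exact l.trans (c.trans (centralizer_anti (le_omegaOneCenter (isElemAb_omegaOneCenter 2 _)
    ((pc.isCharP hT le_sup_right k4).le_pCoreOf
      ((omegaOneCenter_le 2 _).trans ((pCoreOf_le 2 _).trans l')) z) z)))

end CF.QT
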