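import Cfsg.Agent.PLocal.OdA
import Cfsg.Prelude.Def_Quasithin

/-! A pushing up theorem for groups of parabolic characteristic `2`. -/

set_option autoImplicit false

namespace CF.QT

open Cfsg Subgroup CF.Loc CF.FF Function
open scoped commutatorElement

universe u
variable {G : Type u} [Group G] [Finite G] {B H K L M M₀ P R T V X Z : Subgroup G}

theorem parChar_of_even (h : IsOfEvenCharacteristic G) : ParChar 2 G :=
  parChar_of_parabolic fun R hR h1 hp => h _ ⟨R, hR, h1, rfl⟩ hp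

omit [Finite G] in
theorem odd_eq (H : Subgroup G) : oddGenerated H = 𝐑[2](H) := by
  rw [pResidualOf_eq, oddGenerated]; simp only [Nat.coprime_two_right]

omit [Finite G] in
theorem np_cj (h : NP B V Z) {g : G} (hg : g ∈ 𝐍(B)) : NP B (cj[g] V) (cj[g] Z) :=
  cj_eq_self hg ▸ (np_map (f := (MulAut.conj g).toMonoidHom) (MulAut.conj g).injective).2 h

/-- the matching argument: a `T`-invariant nonabelian subgroup centralizing a noncommuting pair -/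
theorem matching (h : NP B V Z) (hT : IsSyl 2 T M₀) (nB : M₀ ≤ 𝐍(B)) (tc : ∀ t ∈ T, cj[t] V ≤ 𝐂(V)) {m : G} (hm : m ∈ M₀)
    (c : ¬ cj[m] V ≤ 𝐂(V)) : ∃ A ≤ B ⊓ 𝐂(V) ⊓ 𝐂(cj[m] V), T ≤ 𝐍(A) ∧ ¬ A ≤ 𝐂(A) := by
  have inv : ∀ g a b : G, cj[g * a] V ≤ 𝐂(cj[g * b] V) ↔ cj[a] V ≤ 𝐂(cj[b] V) := fun g a b => by
    rw [cj_mul, cj_mul, ← cj_centralizer, cj_le_cj_iff]
  have un : ∀ a ∈ M₀, ∀ b ∈ M₀, ∀ d ∈ M₀, ¬ cj[a] V ≤ 𝐂(cj[d] V) → ¬ cj[b] V ≤ 𝐂(cj[d] V) → cj[a] V = cj[b] V :=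
    fun a ha b hb d hd c1 c2 => le_antisymm
      ((np_cj h (nB hd)).uniq (np_cj h (nB hb)) (np_cj h (nB ha)) (by simp only [card_cj]) (by simp only [card_cj]) c2 c1)
      ((np_cj h (nB hd)).uniq (np_cj h (nB ha)) (np_cj h (nB hb)) (by simp only [card_cj]) (by simp only [card_cj]) c1 c2)
  have c1 : ¬ cj[m] V ≤ 𝐂(cj[(1 : G)] V) := by rwa [cj_one]
  have c2 : ¬ cj[(1 : G)] V ≤ 𝐂(cj[m] V) := mt le_centralizer_comm.1 c1
  have mm : m ^ 2 ∈ 𝐍(V) := cj_eq_self_iff.1 ((un _ (pow_mem hm 2) 1 (one_mem _) m hm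
    (by simpa only [pow_two, mul_one] using mt (inv m m 1).1 c1) c2).trans (cj_one V))
  obtain ⟨a, b, ha, hb, ⟨k, hk⟩, ob, e⟩ := exists_p_part (p := 2) (isOfFinOrder_of_finite m)
  have nb : b ∈ 𝐍(V) := mem_of_pow_mem_of_coprime ob (by
    obtain ⟨j, rfl⟩ := mem_zpowers_iff.1 hb
    rw [← zpow_natCast, ← zpow_mul, mul_comm, zpow_mul, zpow_natCast]; exact zpow_mem mm j)
  have ea : cj[a] V = cj[m] V := by rw [e, cj_mul, cj_eq_self nb]
  have aM : a ∈ M₀ := zpowers_le.2 hm ha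
  obtain ⟨g, hg, l⟩ := hT.exists_cj_le (isPGroup_zpowers_of_orderOf hk) (zpowers_le.2 aM)
  have t0 : g * a * g⁻¹ ∈ T := l (conj_mem_cj g (mem_zpowers a))
  have n0 : ∀ t : G, ¬ cj[t * (g * a * g⁻¹) * g] V ≤ 𝐂(cj[t * g] V) := fun t => by
    rw [show t * (g * a * g⁻¹) * g = t * g * a by group, ← mul_one (t * g), mul_assoc _ 1, one_mul, inv, ea]; exact c1
  have k1 : ∀ t ∈ T, cj[t * g] V ≠ V := fun t ht e => n0 t (by
    rw [show t * (g * a * g⁻¹) * g = t * (g * a * g⁻¹) * t⁻¹ * (t * g) by group, cj_mul _ (t * g), e]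
    exact tc _ (mul_mem (mul_mem ht t0) (inv_mem ht)))
  have tg : ∀ t ∈ T, t * g ∈ M₀ := fun t ht => mul_mem (hT.le ht) hg
  refine ⟨ncl (cj[g] V) T, ncl_le_iff.2 fun t ht => ?_, le_normalizer_ncl _ _, fun e => n0 1 ?_⟩
  · rw [← cj_mul]
    refine le_inf (le_inf (np_cj h (nB (tg t ht))).le (by_contra fun e => k1 _ (mul_mem ht t0) ?_))
      (by_contra fun e => k1 t ht ((un _ (tg t ht) 1 (one_mem _) m hm e c2).trans (cj_one V)))
    exact (un _ (tg _ (mul_mem ht t0)) 1 (one_mem _) _ (tg t ht) (n0 t)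
      (by rw [cj_one]; exact mt le_centralizer_comm.1 e)).trans (cj_one V)
  · rw [one_mul, one_mul, cj_mul]
    exact (cj_le_ncl t0).trans (e.trans (centralizer_anti (le_ncl _ _)))

theorem conj_comm (h : Hy 2 K R M) (r : RKD 2 L 𝐁[2](R) (L ⊓ M) X) (l : L ≤ K) {t : G} (h1 : t ∈ 𝐍(K)) (h2 : t ∈ 𝐍(R)) :
    cj[t] 𝐕[2](L) ≤ 𝐂(𝐕[2](L)) := by
  have b : Bx 2 K 𝐁[2](R) 𝐑[2](L) := h.bx r.bk ((pResidualOf_le 2 L).trans l)
  have z : 𝐕[2](L) ⊓ 𝐂(L) ≤ 𝐂(𝐁[2](R)) := inf_le_right.trans (centralizer_anti r.pan.syl.le)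
  have nB := cj_eq_self (norm_baumann 2 R h2)
  have w := r.W ▸ b.W_le_V
  conv_lhs => rw [← r.pan.W_sup, cj_sup]
  refine sup_le (le_centralizer_comm.1 (r.pan.W_sup.ge.trans (sup_le ((w.trans (U_ab 2 K)).trans (centralizer_anti
    (cj_le_of_mem_normalizer (norm_U 2 K h1) w))) (z.trans (centralizer_anti
      ((cj_mono _ (r.pan.W_le.trans r.pan.V_le)).trans nB.le)))))) ((cj_mono _ z).trans ?_)
  rw [cj_centralizer, nB]; exact centralizer_anti r.pan.V_le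

/-- Pushing up: Theorem 3.1.1 of Aschbacher--Smith, in parabolic characteristic `2`. -/
theorem push (pc : ParChar 2 G) (hT : IsSyl 2 T ⊤) (hM : T ≤ M₀) (h1 : 𝐎[2](H) ≠ ⊥) (u : UMax T M H) (hR : R ≠ ⊥)
    (lR : R ≤ T) (sR : IsSyl 2 R (𝐑[2](H) ⊔ R)) (nR : M₀ ≤ 𝐍(R)) : ∃ R₀ ≠ ⊥, R₀ ≤ R ∧ M₀ ⊔ H ≤ 𝐍(R₀) := by
  by_contra! c
  have hH : T ≤ H := u.le.trans u.lt.le
  have sH := hT.mono hH le_top
  have lK : 𝐑[2](H) ⊔ R ≤ H := sup_le (pResidualOf_le 2 H) (lR.trans hH)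
  have nK : H ≤ 𝐍(𝐑[2](H) ⊔ R) := sH.pResidualOf_sup.ge.trans (sup_le (le_sup_left.trans le_normalizer)
    (le_normalizer_sup (hH.trans (le_normalizer_pResidualOf 2 H)) (hM.trans nR)))
  have nc : ∀ C ≤ R, C ≠ ⊥ → M₀ ≤ 𝐍(C) → H ⊓ 𝐍(C) ≤ M := fun C a b n =>
    u.le_of_ne (le_inf hH (hM.trans n)) inf_le_left fun e => c C b a (sup_le n (e.ge.trans inf_le_right))
  have hy : Hy 2 (𝐑[2](H) ⊔ R) R M := ⟨(pc.isCharP hT hH h1).of_normal lK nK, sR, lR.trans u.le,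
    (inf_le_inf lK (centralizer_le_normalizer _)).trans (nc _ (omegaOneCenter_le 2 R) (omegaOneCenter_ne_bot sR.isPGroup hR)
      (nR.trans (normalizer_le_normalizer_omegaOneCenter 2 R))),
    fun C a b e => (inf_le_inf_right _ lK).trans (nc C (a.trans (baumann_le 2 R)) b
      (nR.trans ((norm_baumann 2 R).trans (norm_of_char a e))))⟩
  obtain ⟨P, lP, ⟨a1, a2⟩, mn⟩ := exists_minimal_le (fun P => R ≤ P ∧ ¬ P ≤ M) (K₀ := 𝐑[2](H) ⊔ R)
    ⟨le_sup_right, fun e => u.not_pResidualOf_le sH (le_sup_left.trans e)⟩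
  obtain ⟨L, lL, nL, -, X, r⟩ := (hy.mono a1 lP).rk ⟨le_inf a1 hy.le, lt_of_le_not_ge inf_le_left fun e => a2 (e.trans inf_le_right),
    fun Y b1 b2 => le_inf b2.le (by_contra fun e => b2.ne (mn Y ⟨b1, e⟩ b2.le))⟩
  have lB := baumann_le 2 R
  have lE := pResidualOf_le 2 L
  have np := r.np (T := 𝐁[2](R)) le_rfl
  have nB := nR.trans (norm_baumann 2 R)
  have gen : ∀ Y, T ≤ Y → 𝐑[2](L) ≤ Y → H ≤ Y := fun Y b1 b2 => (u.eq_of_not_le le_sup_right (sup_le (lE.trans (lL.trans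
    (lP.trans lK))) hH) fun e => r.not_le hy.BM (le_sup_left.trans e)).ge.trans (sup_le b2 b1)
  obtain ⟨m, hm, cm⟩ : ∃ m ∈ M₀, ¬ cj[m] 𝐕[2](L) ≤ 𝐂(𝐕[2](L)) := by
    by_contra! e
    have l : ncl 𝐕[2](L) M₀ ≤ 𝐎[2](L) := ncl_le_iff.2 fun g hg => r.pan.le_core (np_cj np (nB hg)).le (e g hg)
    refine c (ncl 𝐕[2](L) M₀) (fun k => r.pan.W_nt (r.pan.W_le.trans ((le_ncl _ M₀).trans (k.le.trans bot_le))))
      ((l.trans r.pan.syl.pCoreOf_le).trans lB) (sup_le (le_normalizer_ncl _ _) (gen _ (hM.trans (le_normalizer_ncl _ _)) ?_))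
    exact le_normalizer_iff_commutator_le_left.2 ((commutator_mono l le_rfl).trans ((r.two rfl).2.trans (le_ncl _ _)))
  obtain ⟨A, lA, nA, cA⟩ := matching np (hT.mono hM le_top) nB (fun t ht =>
    conj_comm hy r (lL.trans lP) (nK (hH ht)) (nR (hM ht))) hm cm
  have np' := np_cj np (nB hm)
  have d1 : ⁅A, A⁆ ≤ 𝐂(𝐑[2](L)) := commutator_le.2 fun x hx y hy => ((np.cc x (lA hx).1).2 y (lA hy).1).1
  have d2 : ⁅A, A⁆ ≤ 𝐂(cj[m] 𝐑[2](L)) := commutator_le.2 fun x hx y hy => by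
    have := (np'.cc x ⟨(lA hx).1.1, (lA hx).2⟩).2 y ⟨(lA hy).1.1, (lA hy).2⟩
    rw [cj_inf, cj_centralizer] at this; exact this.1
  have lAT : A ≤ T := (lA.trans (inf_le_left.trans inf_le_left)).trans (lB.trans lR)
  have TC : T ≤ 𝐍(⁅A, A⁆) := le_normalizer_commutator nA nA
  have pD : IsPGroup 2 ↥⁅A, A⁆ := hT.isPGroup.to_le ((commutator_le_self A).trans lAT)
  have ch := pc T _ hT TC (pCoreOf_ne_bot_of_normal pD (mt commutator_eq_bot_iff_le_centralizer.1 cA) le_normalizer le_rfl)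
  set C := 𝐍(⁅A, A⁆)
  have HC : H ≤ C := gen _ TC ((le_centralizer_comm.1 d1).trans (centralizer_le_normalizer _))
  have LC : L ≤ C := (lL.trans (lP.trans lK)).trans HC
  have pQ := isPGroup_pCoreOf 2 C
  have nQ := le_normalizer_pCoreOf 2 C
  have eL' : cj[m] 𝐑[2](L) ⊔ 𝐁[2](R) = cj[m] L := by
    conv_rhs => rw [← r.pan.syl.pResidualOf_sup, cj_sup, cj_eq_self (nB hm)]
  have LC' : cj[m] L ≤ C := eL'.ge.trans (sup_le ((le_centralizer_comm.1 d2).trans (centralizer_le_normalizer _))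
    ((lB.trans lR).trans TC))
  have qQ : ⁅𝐎[2](C), 𝐑[2](L)⁆ ≤ 𝐎[2](C) := commutator_le_left_of_le_normalizer (lE.trans (LC.trans nQ))
  have e1 := commutator_commutator_pResidualOf pQ (LC.trans nQ)
  set D := ⁅𝐎[2](C), 𝐑[2](L)⁆
  have D1 : D ≤ 𝐍(L) := by
    have QH : 𝐎[2](C) ≤ H := (hT.mono TC le_top).pCoreOf_le.trans hH
    have : D ≤ 𝐎[2](C) ⊓ (𝐑[2](H) ⊔ R) := le_inf qQ ((commutator_mono QH (lE.trans (lL.trans lP))).trans
      (commutator_le_right_of_le_normalizer nK))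
    refine this.trans ((le_pCoreOf (pQ.to_le inf_le_left) inf_le_right (le_normalizer_inf (lK.trans (HC.trans nQ))
      le_normalizer)).trans ((pCoreOf_le_pCoreOf_of_le lP (sR.pCoreOf_le.trans a1)).trans nL))
  have nD : L ≤ 𝐍(D) := le_normalizer_commutator (LC.trans nQ) (le_normalizer_pResidualOf 2 L)
  have D2 : D ≤ 𝐎[2](L) := le_pCoreOf (pQ.to_le qQ) (e1.ge.trans ((commutator_mono D1 lE).trans
    (commutator_le_right_of_le_normalizer le_rfl))) nD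
  have D3 : D ≤ 𝐕[2](L) := e1.ge.trans ((commutator_mono D2 le_rfl).trans (r.two rfl).2)
  have D4 : D ≤ 𝐂(cj[m] 𝐕[2](L)) := by
    have : D ≤ 𝐎[2](C) ⊓ cj[m] L := le_inf qQ ((D3.trans r.pan.V_le).trans (le_sup_right.trans eL'.le))
    refine this.trans ((le_pCoreOf (pQ.to_le inf_le_left) inf_le_right (le_normalizer_inf (LC'.trans nQ) le_normalizer)).trans ?_)
    rw [← cj_pCoreOf, ← cj_centralizer]; exact cj_mono _ (core_le_cent 2 L)
  obtain ⟨w, hw, w0⟩ := SetLike.not_le_iff_exists.1 cm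
  have D5 : 𝐁[2](R) ≤ 𝐂(D) := le_centralizer_comm.1 fun v hv => ((np.ti v (D3 hv) w (np'.le hw) (by
    rw [cm_one (D4 hv w hw)]; exact one_mem _)).resolve_right fun e => w0 e.2).2
  have D6 : 𝐑[2](L) ≤ 𝐂(D) := (r.pan.comm_res.ge.trans (commutator_mono lE D5)).trans
    (commutator_le_right_of_le_normalizer (le_normalizer_centralizer nD))
  have D7 : 𝐑[2](L) ≤ 𝐎[2](C) := (commutator_eq_bot_iff_le_centralizer'.1 (e1.symm.trans
    (commutator_eq_bot_iff_le_centralizer'.2 D6))).trans ch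
  have : 𝐑[2](L) = ⊥ := (pResidualOf_pResidualOf 2 L).symm.trans (pResidualOf_eq_bot_of_isPGroup (pQ.to_le D7))
  exact r.not_le hy.BM (this.le.trans bot_le)

end CF.QT
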