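import Cfsg.Agent.QT.Push
import Cfsg.Agent.PLocal.FFFix

/-! Pushing up over the Baumann subgroup. -/

set_option autoImplicit false

namespace CF.QT

open Cfsg Subgroup CF.Loc CF.FF Function
open CF.PLocal (maxAb thompson_le le_thompson)
open scoped commutatorElement

universe u
variable {G : Type u} [Group G] [Finite G] {A B H K L M M₀ P R T V X Z : Subgroup G}

theorem push' (pc : ParChar 2 G) (hT : IsSyl 2 T ⊤) (hM : T ≤ M₀) (h1 : 𝐎[2](H) ≠ ⊥) (u : UMax T M H)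
    (nB : M₀ ≤ 𝐍(𝐁[2](T))) (cz : ¬ H ≤ 𝐂(𝛀[2](T))) : ∃ R₀ ≠ ⊥, R₀ ≤ 𝐁[2](T) ∧ M₀ ⊔ H ≤ 𝐍(R₀) := by
  by_contra! c
  have hH : T ≤ H := u.le.trans u.lt.le
  have sH := hT.mono hH le_top
  have hy : Hy 2 H T M := ⟨pc.isCharP hT hH h1, sH, u.le, u.le_of_ne (le_inf hH (le_centralizer_omegaOneCenter 2 T)) inf_le_left
    fun e => cz (e.ge.trans inf_le_right), fun C a b e => u.le_of_ne (le_inf hH (hM.trans (nB.trans (norm_of_char a e))))
      inf_le_left fun k => c C b a (sup_le (nB.trans (norm_of_char a e)) (k.ge.trans inf_le_right))⟩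
  obtain ⟨L, lL, nL, -, X, r⟩ := hy.rk (by rwa [inf_eq_right.2 u.lt.le])
  have lB := baumann_le 2 T
  have lE := pResidualOf_le 2 L
  have np := r.np (T := 𝐁[2](T)) le_rfl
  have gen : ∀ Y, T ≤ Y → 𝐑[2](L) ≤ Y → H ≤ Y := fun Y b1 b2 => (u.eq_of_not_le le_sup_right (sup_le (lE.trans lL) hH)
    fun e => r.not_le hy.BM (le_sup_left.trans e)).ge.trans (sup_le b2 b1)
  obtain ⟨m, hm, cm⟩ : ∃ m ∈ M₀, ¬ cj[m] 𝐕[2](L) ≤ 𝐂(𝐕[2](L)) := by
    by_contra! e
    have l : ncl 𝐕[2](L) M₀ ≤ 𝐎[2](L) := ncl_le_iff.2 fun g hg => r.pan.le_core (np_cj np (nB hg)).le (e g hg)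
    refine c (ncl 𝐕[2](L) M₀) (fun k => r.pan.W_nt (r.pan.W_le.trans ((le_ncl _ M₀).trans (k.le.trans bot_le))))
      (l.trans r.pan.syl.pCoreOf_le) (sup_le (le_normalizer_ncl _ _) (gen _ (hM.trans (le_normalizer_ncl _ _)) ?_))
    exact le_normalizer_iff_commutator_le_left.2 ((commutator_mono l le_rfl).trans ((r.two rfl).2.trans (le_ncl _ _)))
  obtain ⟨A, lA, nA, cA⟩ := matching np (hT.mono hM le_top) nB (fun t ht =>
    conj_comm hy r lL (le_normalizer (hH ht)) (le_normalizer ht)) hm cm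
  have np' := np_cj np (nB hm)
  have d1 : ⁅A, A⁆ ≤ 𝐂(𝐑[2](L)) := commutator_le.2 fun x hx y hy => ((np.cc x (lA hx).1).2 y (lA hy).1).1
  have d2 : ⁅A, A⁆ ≤ 𝐂(cj[m] 𝐑[2](L)) := commutator_le.2 fun x hx y hy => by
    have := (np'.cc x ⟨(lA hx).1.1, (lA hx).2⟩).2 y ⟨(lA hy).1.1, (lA hy).2⟩
    rw [cj_inf, cj_centralizer] at this; exact this.1
  have lAT : A ≤ T := (lA.trans (inf_le_left.trans inf_le_left)).trans lB
  have TC : T ≤ 𝐍(⁅A, A⁆) := le_normalizer_commutator nA nA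
  have pD : IsPGroup 2 ↥⁅A, A⁆ := hT.isPGroup.to_le ((commutator_le_self A).trans lAT)
  have ch := pc T _ hT TC (pCoreOf_ne_bot_of_normal pD (mt commutator_eq_bot_iff_le_centralizer.1 cA) le_normalizer le_rfl)
  set C := 𝐍(⁅A, A⁆)
  have HC : H ≤ C := gen _ TC ((le_centralizer_comm.1 d1).trans (centralizer_le_normalizer _))
  have LC : L ≤ C := lL.trans HC
  have pQ := isPGroup_pCoreOf 2 C
  have nQ := le_normalizer_pCoreOf 2 C
  have eL' : cj[m] 𝐑[2](L) ⊔ 𝐁[2](T) = cj[m] L := by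
    conv_rhs => rw [← r.pan.syl.pResidualOf_sup, cj_sup, cj_eq_self (nB hm)]
  have LC' : cj[m] L ≤ C := eL'.ge.trans (sup_le ((le_centralizer_comm.1 d2).trans (centralizer_le_normalizer _))
    (lB.trans TC))
  have qQ : ⁅𝐎[2](C), 𝐑[2](L)⁆ ≤ 𝐎[2](C) := commutator_le_left_of_le_normalizer (lE.trans (LC.trans nQ))
  have e1 := commutator_commutator_pResidualOf pQ (LC.trans nQ)
  set D := ⁅𝐎[2](C), 𝐑[2](L)⁆
  have D1 : D ≤ 𝐍(L) := qQ.trans ((pCoreOf_le_pCoreOf_of_le HC ((hT.mono TC le_top).pCoreOf_le.trans hH)).trans nL)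
  have nD : L ≤ 𝐍(D) := le_normalizer_commutator (LC.trans nQ) (le_normalizer_pResidualOf 2 L)
  have D2 : D ≤ 𝐎[2](L) := le_pCoreOf (pQ.to_le qQ) (e1.ge.trans ((commutator_mono D1 lE).trans
    (commutator_le_right_of_le_normalizer le_rfl))) nD
  have D3 : D ≤ 𝐕[2](L) := e1.ge.trans ((commutator_mono D2 le_rfl).trans (r.two rfl).2)
  have D4 : D ≤ 𝐂(cj[m] 𝐕[2](L)) := by
    have : D ≤ 𝐎[2](C) ⊓ cj[m] L := le_inf qQ ((D3.trans r.pan.V_le).trans (le_sup_right.trans eL'.le))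
    refine this.trans ((le_pCoreOf (pQ.to_le inf_le_left) inf_le_right (le_normalizer_inf (LC'.trans nQ) le_normalizer)).trans ?_)
    rw [← cj_pCoreOf, ← cj_centralizer]; exact cj_mono _ (core_le_cent 2 L)
  obtain ⟨w, hw, w0⟩ := SetLike.not_le_iff_exists.1 cm
  have D5 : 𝐁[2](T) ≤ 𝐂(D) := le_centralizer_comm.1 fun v hv => ((np.ti v (D3 hv) w (np'.le hw) (by
    rw [cm_one (D4 hv w hw)]; exact one_mem _)).resolve_right fun e => w0 e.2).2
  have D6 : 𝐑[2](L) ≤ 𝐂(D) := (r.pan.comm_res.ge.trans (commutator_mono lE D5)).trans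
    (commutator_le_right_of_le_normalizer (le_normalizer_centralizer nD))
  have D7 : 𝐑[2](L) ≤ 𝐎[2](C) := (commutator_eq_bot_iff_le_centralizer'.1 (e1.symm.trans
    (commutator_eq_bot_iff_le_centralizer'.2 D6))).trans ch
  have : 𝐑[2](L) = ⊥ := (pResidualOf_pResidualOf 2 L).symm.trans (pResidualOf_eq_bot_of_isPGroup (pQ.to_le D7))
  exact r.not_le hy.BM (this.le.trans bot_le)

/-- if `J(T) ≰ O_p(H)` and `H` centralizes `Ω₁Z(T)`, then `O^p(H)` centralizes `Ω₁Z(O_p(H))` -/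
theorem ffz {p : ℕ} [Fact p.Prime] (hT : IsSyl p T H) (u : UMax T M H) (hJ : ¬ 𝐉[p](T) ≤ 𝐎[p](H)) (cz : H ≤ 𝐂(𝛀[p](T))) :
    𝐑[p](H) ≤ 𝐂(𝐔[p](H)) := by
  by_contra c
  have ea := isElemAb_omegaOneCenter p 𝐎[p](H)
  have nV := norm_omega p H
  have VT := (U_le_core p H).trans hT.pCoreOf_le
  set V := 𝐔[p](H)
  have hn : ¬ H ≤ 𝐍(T) := fun e => hJ ((thompson_le p T).trans (pCoreOf_eq_of_isSyl hT e).ge)
  have hS' := hT.le.trans nV
  have hM' := u.lt.le.trans nV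
  have pre : Pre p (hat V V) (bar V H) (bar V T) (bar V M) := by
    refine ⟨isElemAb_hat ea, bar_le_normalizer_hat _, bar_inf_centralizer_hat nV, ?_, ?_,
      pCoreOf_bar_eq_bot nV ((u.pIrr hT hn).redMod (core_cent_U p H) c)⟩
    · refine IsSyl.map _ ⟨comap_mono hT.le, isPGroup_subgroupOf hT.isPGroup, fun Q hQ a b => ?_⟩
      rw [← hT.eq_of_le (hQ.map _) (by rw [← map_subgroupOf_eq_of_le hS']; exact map_mono a) (map_le_iff_le_comap.2 b),
        subgroupOf, comap_map_eq_self_of_injective (subtype_injective _)]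
    · refine UMax.map _ (uMax_map_subtype_iff.1 (by
        rwa [map_subgroupOf_eq_of_le hS', map_subgroupOf_eq_of_le hM', map_subgroupOf_eq_of_le nV])) ?_
      rw [ker_piV]
      exact fun x hx => ((u.le_or_le hT.isPGroup inf_le_left (le_normalizer_inf le_normalizer
        (le_normalizer_centralizer nV))).resolve_left fun e => c (e.trans inf_le_right)) ⟨hx.1, hx.2⟩
  obtain ⟨A, hA, a0⟩ : ∃ A ∈ maxAb p T, ¬ A ≤ 𝐎[p](H) := by
    by_contra! e; exact hJ (CF.PLocal.thompson_le_iff.2 e)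
  have nA := hA.1.trans hS'
  have eA := isElemAb_bar (V := V) hA.2.1
  obtain ⟨B, b1, b2, -, b4⟩ := exists_best_quad (isElemAb_le_centralizer pre.ea) (isElemAb_isPGroup pre.ea) (isElemAb_isPGroup eA)
    (bar_le_normalizer_hat A) ((comm_le_of_cent (isElemAb_le_centralizer eA))) (fun e => a0 ((le_inf hA.1 ((bar_eq_bot_iff nA).1
      (le_bot_iff.1 ((le_inf le_rfl e).trans (bar_inf_centralizer_hat nA).le)))).trans (inf_le_core hT u
        (le_normalizer_centralizer nV) c))) (by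
      rw [bar_inf_centralizer_hat nA, card_bot, one_mul]; exact off_bar nA (maxAb_off hA VT ea))
  have eB := isElemAb_of_le eA b1
  refine pre.not_le (b1.trans (bar_mono (hA.1.trans hT.le))) b2 ⟨b4, comm_le_of_cent (isElemAb_le_centralizer eB),
    fun a ha => by rw [(isElementaryAbelian_iff.1 eB).2 a ha]; exact one_mem _⟩ ?_
  rw [hat_inf_centralizer hS', hat_le_centralizer_iff inf_le_left nV]
  exact (le_omegaOneCenter (isElemAb_of_le ea inf_le_left) (inf_le_left.trans VT) inf_le_right).trans (le_centralizer_comm.1 cz)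

end CF.QT
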