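import Cfsg.Agent.QT.LS
import Cfsg.Agent.Loc.Free1

/-! The two cases of the `qrc`-lemma in a rank one configuration. -/

set_option autoImplicit false

namespace CF.QT

open Cfsg Subgroup CF.Loc CF.FF Function
open CF.PLocal (maxAb)
open scoped commutatorElement

variable {G : Type*} [Group G] {A B D L M Q V V₁ W X Y Z : Subgroup G} {a c g w x y : G}

/-- a cubic `2F`-offender -/
structure Of3 (V B : Subgroup G) : Prop where
  nt : ¬ B ≤ 𝐂(V)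
  sq : ∀ b ∈ B, b ^ 2 ∈ 𝐂(V)
  cm : ⁅B, B⁆ ≤ 𝐂(V)
  cub : ⁅⁅⁅V, B⁆, B⁆, B⁆ = ⊥
  card : 𝐂(B).relIndex V ≤ 𝐂(V).relIndex B ^ 2

/-- a quadratic `2F`-offender -/
def Of2 (V B : Subgroup G) : Prop := Of3 V B ∧ ⁅⁅V, B⁆, B⁆ = ⊥

theorem idx_cj (g : G) (X Y : Subgroup G) : 𝐂(cj[g] X).relIndex (cj[g] Y) = 𝐂(X).relIndex Y := by
  rw [← cj_centralizer, relIndex_cj]

theorem Of3.cj (h : Of3 V B) (hg : g ∈ 𝐍(V)) : Of3 V (cj[g] B) := by
  rw [← cj_eq_self hg]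
  refine ⟨by rw [← cj_centralizer, cj_le_cj_iff]; exact h.nt, fun b hb => ?_, ?_, ?_, by rw [idx_cj, idx_cj]; exact h.card⟩
  · rw [← cj_centralizer, mem_cj]; simpa [pow_two, mul_assoc] using h.sq _ (mem_cj.1 hb)
  · rw [← cj_centralizer, ← cj_commutator]; exact cj_mono g h.cm
  · rw [← cj_commutator, ← cj_commutator, ← cj_commutator, h.cub, cj_bot]

theorem Of2.cj (h : Of2 V B) (hg : g ∈ 𝐍(V)) : Of2 V (cj[g] B) :=
  ⟨h.1.cj hg, by rw [← cj_eq_self hg, ← cj_commutator, ← cj_commutator, h.2, cj_bot]⟩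

theorem Of3.res [Finite G] (h : Of3 V₁ B) (l : V ≤ V₁) (c : B ⊓ 𝐂(V) ≤ 𝐂(V₁)) : Of3 V B := by
  have k := centralizer_anti l
  refine ⟨fun e => h.nt ((le_inf le_rfl e).trans c), fun b hb => k (h.sq b hb), h.cm.trans k, le_bot_iff.1
    ((commutator_mono (commutator_mono (commutator_mono l le_rfl) le_rfl) le_rfl).trans h.cub.le),
    ((relIndex_mono l _).trans h.card).trans (Nat.pow_le_pow_left ?_ 2)⟩
  rw [← inf_relIndex_left B 𝐂(V)]
  exact relIndex_anti c B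

theorem Of2.res [Finite G] (h : Of2 V₁ B) (l : V ≤ V₁) (c : B ⊓ 𝐂(V) ≤ 𝐂(V₁)) : Of2 V B :=
  ⟨h.1.res l c, le_bot_iff.1 ((commutator_mono (commutator_mono l le_rfl) le_rfl).trans h.2.le)⟩

theorem of2_of (hV : IsElementaryAbelian 2 V) (n : B ≤ 𝐍(V)) (q : ⁅⁅V, B⁆, B⁆ = ⊥) (nt : ¬ B ≤ 𝐂(V))
    (c : 𝐂(B).relIndex V ≤ 𝐂(V).relIndex B ^ 2) : Of2 V B :=
  ⟨⟨nt, fun _ hb => CF.PLocal.pow_mem_centralizer_of_quadratic (isElementaryAbelian_iff.1 hV).2 n q hb,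
    CF.PLocal.commutator_self_le_centralizer_of_quadratic q, by rw [q, commutator_bot_left], c⟩, q⟩

theorem relIndex_le_card {T : Type*} [Finite T] (f : A → T) (hf : ∀ a b : A, f a = f b → (a : G)⁻¹ * b ∈ B) :
    B.relIndex A ≤ Nat.card T :=
  Nat.card_le_card_of_injective (fun q : A ⧸ B.subgroupOf A => f q.out) fun q r e =>
    q.out_eq'.symm.trans (((QuotientGroup.eq (s := B.subgroupOf A)).2 (hf _ _ e)).trans r.out_eq')

theorem one_lt_relIndex [Finite G] (h : ¬ X ≤ Y) : 1 < Y.relIndex X :=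
  Nat.one_lt_iff_ne_zero_and_ne_one.2 ⟨index_ne_zero_of_finite, mt relIndex_eq_one.1 h⟩

theorem le_sq_of_le {m n : ℕ} (h : m ≤ n) : m ≤ n ^ 2 := h.trans (Nat.le_self_pow two_ne_zero n)

/-- a commutator pairing with values in a group of order two -/
theorem pair [Finite G] {Z' : Subgroup G} {z : G} (c : ⁅D, V⁆ ≤ Z) (cV : Z ≤ 𝐂(V)) (cD : Z ≤ 𝐂(D)) (l : Z' ≤ Z)
    (two : ∀ u ∈ Z, u ∈ Z' ∨ z * u ∈ Z') : (secCent D Z').relIndex V ≤ 𝐂(V).relIndex D := by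
  have nV : V ≤ 𝐍(Z') := (le_centralizer_comm.1 cV).trans (centralizer_le_normalizer_of_le l)
  have nD : D ≤ 𝐍(Z') := (le_centralizer_comm.1 cD).trans (centralizer_le_normalizer_of_le l)
  have key : ∀ K : Subgroup G, K ≤ D → D ⊓ 𝐂(V) ≤ K → (secCent K Z').relIndex V * Nat.card ↥(D ⊓ 𝐂(V)) ≤ Nat.card K := by
    refine fun K => subgroup_induction (P := fun K => K ≤ D → D ⊓ 𝐂(V) ≤ K →
      (secCent K Z').relIndex V * Nat.card ↥(D ⊓ 𝐂(V)) ≤ Nat.card K) K fun K _ ih a b => ?_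
    rcases b.eq_or_lt with e | e
    · rw [relIndex_eq_one.2 (le_secCent_iff.2 ⟨nV, comm_le_of_cent (e.ge.trans inf_le_right)⟩), one_mul, e]
    obtain ⟨K', b1, b2, b3⟩ := exists_max_lt e
    obtain ⟨γ, hγ, γ0⟩ := SetLike.exists_of_lt b2
    have e1 : K ≤ K' ⊔ zpowers γ := by_contra fun k => γ0 ((b3 _ le_sup_left (lt_of_le_not_ge (sup_le b2.le (zpowers_le.2 hγ)) k)).le
      (mem_sup_right (mem_zpowers γ)))
    have m : ∀ v ∈ V, ⁅γ, v⁆ ∈ Z := fun v hv => c (commutator_mem_commutator (a hγ) hv)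
    have i2 : (secCent (zpowers γ) Z').relIndex V ≤ 2 := by
      refine (relIndex_le_card (fun v => ⁅γ, (v : G)⁆ ∈ Z') fun u v e => ?_).trans (by simp)
      have huv := mul_mem (inv_mem u.2) v.2
      have k : ⁅γ, (u : G)⁻¹ * v⁆ = ⁅γ, (u : G)⁆⁻¹ * ⁅γ, (v : G)⁆ := by
        rw [eq_inv_mul_iff_mul_eq]
        conv_rhs => rw [← mul_inv_cancel_left (u : G) v, commutatorElement_mul_right_eq_mul_conj, mul_assoc _ (u : G),
          cV (m _ huv) u u.2, mul_assoc, mul_inv_cancel_right]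
      refine le_secCent_iff.2 ⟨zpowers_le.2 (nV huv), CF.PLocal.commutator_zpowers_zpowers_le (nD (a hγ)) (nV huv) ?_⟩
        (mem_zpowers _)
      rw [k]
      by_cases k1 : ⁅γ, (u : G)⁆ ∈ Z'
      · exact mul_mem (inv_mem k1) (e ▸ k1)
      · simpa [mul_assoc] using mul_mem (inv_mem ((two _ (m u u.2)).resolve_left k1))
          ((two _ (m v v.2)).resolve_left (e ▸ k1))
    have i1 : (secCent K Z').relIndex V ≤ (secCent K' Z').relIndex V * 2 := by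
      refine le_trans (relIndex_anti (X := secCent K' Z' ⊓ secCent (zpowers γ) Z') (le_secCent_iff.2
        ⟨inf_le_left.trans (secCent_le_normalizer _ _), (commutator_mono e1 le_rfl).trans (commutator_sup_left_le
          (b2.le.trans (a.trans nD)) (zpowers_le.2 (nD (a hγ))) (le_secCent_iff.1 inf_le_left).2
            (le_secCent_iff.1 inf_le_right).2)⟩) V) (relIndex_inf_le.trans (Nat.mul_le_mul_left _ i2))
    have i3 := ih K' b2 (b2.le.trans a) b1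
    have i4 := card_mul_relIndex b2.le
    have i5 := one_lt_relIndex b2.not_ge
    calc _ ≤ (secCent K' Z').relIndex V * Nat.card ↥(D ⊓ 𝐂(V)) * 2 := by rw [mul_right_comm]; exact Nat.mul_le_mul_right _ i1
      _ ≤ Nat.card K' * K'.relIndex K := Nat.mul_le_mul i3 i5
      _ = _ := i4
  have := key D le_rfl inf_le_left
  rw [← card_mul_relIndex (inf_le_left : D ⊓ 𝐂(V) ≤ D), mul_comm, inf_relIndex_left] at this
  exact Nat.le_of_mul_le_mul_left this Nat.card_pos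

theorem exists_hyperplane [Finite G] (hZ : IsElementaryAbelian 2 Z) {z : G} (hz : z ∈ Z) (z1 : z ≠ 1) :
    ∃ Z' ≤ Z, z ∉ Z' ∧ ∀ u ∈ Z, u ∈ Z' ∨ z * u ∈ Z' := by
  obtain ⟨Z', -, ⟨a, b⟩, m⟩ := exists_maximal_ge (L := Z) (fun K => K ≤ Z ∧ z ∉ K) (fun _ h => h.1) (K₀ := ⊥)
    ⟨bot_le, by simpa using z1⟩
  refine ⟨Z', a, b, fun u hu => or_iff_not_imp_left.2 fun u0 => ?_⟩
  have ab := isElemAb_le_centralizer hZ
  have sq := (isElementaryAbelian_iff.1 hZ).2 u hu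
  have : z ∈ Z' ⊔ zpowers u := by_contra fun k =>
    u0 ((m _ ⟨sup_le a (zpowers_le.2 hu), k⟩ le_sup_left).le (mem_sup_right (mem_zpowers u)))
  obtain ⟨n, hn, y, hy, rfl⟩ := (mem_sup_of_le_normalizer ((zpowers_le.2 hu).trans (ab.trans
    (centralizer_le_normalizer_of_le a)))).1 this
  obtain ⟨k, rfl⟩ := (isOfFinOrder_of_finite u).mem_powers_iff_mem_zpowers.2 hy
  rcases Nat.even_or_odd' k with ⟨j, rfl | rfl⟩
  · simp only [pow_mul, sq, one_pow, mul_one] at b; exact absurd hn b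
  · simpa only [pow_succ, pow_mul, sq, one_pow, one_mul, mul_assoc, ← pow_two, mul_one] using hn

/-- `V` is centralized by `A` and normalized by `M` -/
structure LV (L Q M A V : Subgroup G) : Prop extends LS L Q M A where
  VA : V ≤ A
  nV : M ≤ 𝐍(V)
  nn : ¬ L ≤ 𝐍(V)

/-- the largest normal subgroup inside `V` -/
abbrev Zc (L A V : Subgroup G) : Subgroup G := V ⊓ 𝐂(ncl A L)

namespace LV
variable (h : LV L Q M A V)
include h

theorem eV : IsElementaryAbelian 2 V := isElemAb_of_le h.ea h.VA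
theorem abV : V ≤ 𝐂(V) := isElemAb_le_centralizer h.eV
theorem cV : V ≤ 𝐂(A) := h.VA.trans h.ab
theorem VL : V ≤ L := h.VA.trans h.AL

theorem nZ : L ≤ 𝐍(Zc L A V) := h.ncl_sup.trans (sup_le ((le_centralizer_comm.1 inf_le_right).trans (centralizer_le_normalizer _))
  (le_normalizer_inf (h.QM.trans h.nV) (le_normalizer_centralizer (h.QL.trans (le_normalizer_ncl _ _)))))

theorem Z_le (hy : y ∈ L) : Zc L A V ≤ cj[y] V := (cj_eq_self (h.nZ hy)).ge.trans (cj_mono y inf_le_left)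

theorem core_le (n : L ≤ 𝐍(X)) (l : X ≤ V) : X ≤ Zc L A V :=
  le_inf l (le_centralizer_comm.1 (ncl_le_centralizer (le_centralizer_comm.1 (l.trans h.cV)) n))

theorem ZQ : Zc L A V ≤ Q := fun z hz => h.core z (h.VA hz.1) fun y hy => cj_mono y (h.VA.trans h.AM) (h.Z_le hy hz)

theorem nQV (hy : y ∈ L) : Q ≤ 𝐍(cj[y] V) := by
  rw [← cj_normalizer, ← cj_eq_self (h.nQ hy)]; exact cj_mono y (h.QM.trans h.nV)

theorem nMV (y : G) : cj[y] M ≤ 𝐍(cj[y] V) := by rw [← cj_normalizer]; exact cj_mono y h.nV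

theorem abV' (y : G) : cj[y] V ≤ 𝐂(cj[y] V) := isElemAb_le_centralizer (isElemAb_cj y h.eV)

theorem mem_of_norm (hg : g ∈ L) (n : g ∈ 𝐍(V)) : g ∈ M := by_contra fun g0 =>
  h.nn (h.le_of (h.AM.trans h.nV) (h.QM.trans h.nV) hg g0 n)

variable [Finite G]

theorem ti0 (hc : c ∈ V) (hg : g ∈ L) (g0 : g ∉ M) (e : ⁅g, c⁆ ∈ Zc L A V) : c ∈ Zc L A V := by
  have l : ncl (zpowers c) Q ⊔ Zc L A V ≤ V := sup_le (ncl_le (zpowers_le.2 hc) (h.QM.trans h.nV)) inf_le_left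
  have nQ := le_normalizer_sup (le_normalizer_ncl (zpowers c) Q) (h.QL.trans h.nZ)
  have m : c ∈ ncl (zpowers c) Q ⊔ Zc L A V := mem_sup_left (le_ncl _ _ (mem_zpowers c))
  refine h.core_le (h.le_of ((le_centralizer_comm.1 h.cV).trans (centralizer_le_normalizer_of_le l)) nQ hg g0
    (mem_normalizer_of_cj_le ?_)) l m
  rw [cj_sup, cj_ncl, cj_eq_self (h.nQ hg), cj_eq_self (h.nZ hg), cj_zpowers, comm_conj_eq]
  exact sup_le (ncl_le (zpowers_le.2 (mul_mem (mem_sup_right e) m)) nQ) le_sup_right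

theorem ti (hy : y ∈ L) (hc : c ∈ cj[y] V) (hg : g ∈ L) (g0 : g ∉ cj[y] M) (e : ⁅g, c⁆ ∈ Zc L A V) : c ∈ Zc L A V := by
  have := h.ti0 (mem_cj.1 hc) (mul_mem (mul_mem (inv_mem hy) hg) hy) (mt mem_cj.2 g0) (by
    have := conj_mem_of_mem_normalizer (h.nZ (inv_mem hy)) e
    rwa [cm_conj, inv_inv] at this)
  simpa [mul_assoc] using conj_mem_of_mem_normalizer (h.nZ hy) this

theorem inf_cent (hx : x ∈ L) (x0 : x ∉ M) : V ⊓ 𝐂(cj[x] A) ≤ Zc L A V := fun c hc =>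
  let ⟨g, hg, g0⟩ := h.exists_cj hx x0
  h.ti0 hc.1 (cj_le_of_mem hx h.AL hg) g0 (by rw [cm_one (hc.2 g hg)]; exact one_mem _)

theorem inf_le (hx : x ∈ L) (x0 : x ∉ M) : V ⊓ cj[x] V ≤ Zc L A V :=
  (inf_le_inf_left V (by rw [← cj_centralizer]; exact cj_mono x h.cV)).trans (h.inf_cent hx x0)

theorem comm_le (hx : x ∈ L) (x0 : x ∉ M) (h1 : X ≤ V) (h2 : X ≤ 𝐍(cj[x] V)) (h3 : Y ≤ cj[x] V) (h4 : Y ≤ 𝐍(V)) :
    ⁅X, Y⁆ ≤ Zc L A V :=
  (le_inf ((commutator_mono h1 le_rfl).trans (commutator_le_left_of_le_normalizer h4))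
    ((commutator_mono le_rfl h3).trans (commutator_le_right_of_le_normalizer h2))).trans (h.inf_le hx x0)

theorem cub (v0 : ¬ V ⊓ Q ≤ Zc L A V) (hx : x ∈ L) (x0 : x ∉ M)
    (n : 𝐂(cj[x] V ⊓ M).relIndex (V ⊓ cj[x] M) ≤ 𝐂(V ⊓ cj[x] M).relIndex (cj[x] V ⊓ M))
    (o : ¬ V ≤ cj[x] M ∨ 1 < 𝐂(V ⊓ cj[x] M).relIndex (cj[x] V ⊓ M)) : Of3 V (cj[x] V ⊓ M) := by
  have nB : cj[x] V ⊓ M ≤ 𝐍(V) := inf_le_right.trans h.nV
  have nZ := h.nZ
  have l0 : cj[x] (V ⊓ Q) ≤ cj[x] V ⊓ Q := by rw [cj_inf, cj_eq_self (h.nQ hx)]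
  obtain ⟨u, hu, u0⟩ : ∃ u ∈ cj[x] V ⊓ Q, u ∉ Zc L A V :=
    SetLike.not_le_iff_exists.1 fun e => v0 (cj_le_cj_iff.1 ((l0.trans e).trans (cj_eq_self (nZ hx)).ge))
  have k : ∀ v ∈ V, ⁅v, u⁆ ∈ Zc L A V → v ∈ cj[x] M := fun v hv e => by_contra fun c => u0 (h.ti hx hu.1 (h.VL hv) c e)
  have q : ⁅cj[x] V ⊓ Q, V⁆ ≤ V ⊓ Q := le_inf (commutator_le_right_of_le_normalizer (inf_le_right.trans (h.QM.trans h.nV)))
    ((commutator_mono inf_le_right le_rfl).trans (commutator_le_left_of_le_normalizer (h.VL.trans h.nQ)))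
  have c1 : ⁅V, cj[x] V ⊓ M⁆ ≤ V ⊓ cj[x] M := fun v hv =>
    have hv' := commutator_le_left_of_le_normalizer nB hv
    ⟨hv', k v hv' (three_subgroups (h.VL.trans nZ) (inf_le_right.trans (h.ML.trans nZ)) (inf_le_right.trans (h.QL.trans nZ))
      (by rw [commutator_eq_bot_iff_le_centralizer.2 ((inf_le_left.trans (h.abV' x)).trans (centralizer_anti inf_le_left)),
        commutator_bot_left]; exact bot_le)
      ((commutator_mono q le_rfl).trans (h.comm_le hx x0 inf_le_left (inf_le_right.trans (h.nQV hx)) inf_le_left nB))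
      (commutator_mem_commutator hv hu))⟩
  have c2 := h.comm_le hx x0 (X := V ⊓ cj[x] M) inf_le_left (inf_le_right.trans (h.nMV x)) inf_le_left nB
  have i1 : (cj[x] M).relIndex V ≤ (Zc L A V).relIndex (V ⊓ Q) := by
    have m : ∀ v : V, ⁅u, (v : G)⁆ ∈ V ⊓ Q := fun v => q (commutator_mem_commutator hu v.2)
    refine relIndex_le_card (T := ↥(V ⊓ Q) ⧸ (Zc L A V).subgroupOf (V ⊓ Q)) (fun v => (⟨_, m v⟩ : ↥(V ⊓ Q))) fun a b e =>
      k _ (mul_mem (inv_mem a.2) b.2) ?_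
    rw [← commutatorElement_inv, cm_inv_right h.abV (h.nV (h.QM hu.2)) a.2 b.2]
    exact inv_mem ((QuotientGroup.eq (s := (Zc L A V).subgroupOf (V ⊓ Q))).1 e)
  have i2 : 𝐂(V ⊓ cj[x] M).relIndex (cj[x] V ⊓ M) ≤ 𝐂(V).relIndex (cj[x] V ⊓ M) := relIndex_anti (centralizer_anti inf_le_left) _
  have i3 : ¬ V ≤ cj[x] M → (Zc L A V).relIndex (V ⊓ Q) ≤ 𝐂(V).relIndex (cj[x] V ⊓ M) := fun e => by
    obtain ⟨v, hv, v1⟩ := SetLike.not_le_iff_exists.1 e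
    rw [← relIndex_cj x, cj_eq_self (nZ hx)]
    refine le_trans ?_ (relIndex_mono (l0.trans (inf_le_inf_left _ h.QM)) _)
    rw [← inf_relIndex_left _ 𝐂(V)]
    exact relIndex_anti (X := cj[x] (V ⊓ Q) ⊓ 𝐂(V)) (fun c hc => h.ti hx (l0 hc.1).1 (h.VL hv) v1 (by rw [cm_one (hc.2 v hv)]; exact one_mem _)) _
  have i4 : 1 < 𝐂(V).relIndex (cj[x] V ⊓ M) := o.elim (fun e => (one_lt_relIndex v0).trans_le (i3 e)) fun e => e.trans_le i2
  have i5 : (cj[x] M).relIndex V ≤ 𝐂(V).relIndex (cj[x] V ⊓ M) := by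
    by_cases e : V ≤ cj[x] M
    · rw [relIndex_eq_one.2 e]; exact i4.le
    · exact i1.trans (i3 e)
  have eB := isElemAb_of_le (isElemAb_cj x h.eV) (inf_le_left : cj[x] V ⊓ M ≤ _)
  refine ⟨fun e => i4.ne' (relIndex_eq_one.2 e), fun b hb => by rw [(isElementaryAbelian_iff.1 eB).2 b hb]; exact one_mem _,
    comm_le_of_cent (isElemAb_le_centralizer eB), commutator_eq_bot_iff_le_centralizer.2 (((commutator_mono c1 le_rfl).trans
      c2).trans ((h.Z_le hx).trans ((h.abV' x).trans (centralizer_anti inf_le_left)))), ?_⟩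
  calc _ ≤ (𝐂(cj[x] V ⊓ M) ⊓ cj[x] M).relIndex V := relIndex_anti inf_le_left V
    _ = _ := by rw [← relIndex_inf_mul_relIndex, inf_comm (cj[x] M) V]
    _ ≤ _ := by rw [pow_two]; exact Nat.mul_le_mul (n.trans i2) i5

theorem caseA (hc : IsCharP 2 L) (e : Q = 𝐎[2](L)) (v0 : ¬ V ≤ Q) : ∃ B ≤ M, IsPGroup 2 B ∧ Of3 V B := by
  have v1 : ¬ V ⊓ Q ≤ Zc L A V := fun k => v0 (by
    have a : ncl V L ≤ secCent Q (Zc L A V) := ncl_le (le_secCent_iff.2 ⟨h.VL.trans h.nZ, (le_inf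
      (commutator_le_right_of_le_normalizer (h.QM.trans h.nV)) (commutator_le_left_of_le_normalizer (h.VL.trans h.nQ))).trans k⟩)
        (le_normalizer_secCent h.nQ h.nZ)
    have l := ncl_le_of_le h.VL
    subst e
    exact (le_ncl V L).trans (le_pCoreOf (hc.isPGroup_of_quadratic l (commutator_eq_bot_iff_le_centralizer.2
      ((le_secCent_iff.1 a).2.trans (inf_le_right.trans (centralizer_anti (ncl_mono h.VA le_rfl)))))) l (le_normalizer_ncl _ _)))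
  obtain ⟨v, hv, v2⟩ := SetLike.not_le_iff_exists.1 v0
  obtain ⟨x, hx, x1⟩ : ∃ x ∈ L, v ∉ cj[x] M := by by_contra! k; exact v2 (h.core v (h.VA hv) k)
  have x0 : x ∉ M := fun k => x1 ((cj_eq_self_of_mem k).ge (h.AM (h.VA hv)))
  have pB : ∀ x, IsPGroup 2 ↥(cj[x] V ⊓ M) := fun x => (isElemAb_isPGroup (isElemAb_cj x h.eV)).to_le inf_le_left
  by_cases n : 𝐂(cj[x] V ⊓ M).relIndex (V ⊓ cj[x] M) ≤ 𝐂(V ⊓ cj[x] M).relIndex (cj[x] V ⊓ M)
  · exact ⟨_, inf_le_right, pB x, h.cub v1 hx x0 n (.inl fun k => x1 (k hv))⟩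
  · rw [← idx_cj x⁻¹, ← idx_cj x⁻¹ (V ⊓ _), cj_inf, cj_inf, cj_inv_cj, cj_inv_cj, not_le] at n
    exact ⟨_, inf_le_right, pB x⁻¹, h.cub v1 (inv_mem hx) (mt inv_mem_iff.1 x0) n.le
      (.inr (Nat.lt_of_le_of_lt (Nat.pos_of_ne_zero index_ne_zero_of_finite) n))⟩

end LV

end CF.QT
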