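import Cfsg.Agent.QT.Qrc1

/-! The `qrc`-lemma. -/

set_option autoImplicit false

namespace CF.QT

open Cfsg Subgroup CF.Loc CF.FF Function
open CF.PLocal (maxAb thompson_le le_thompson)
open scoped commutatorElement

universe u
variable {G : Type u} [Group G] [Finite G] {A B D H L M M₀ P Q S T V W X Y Z : Subgroup G} {a c g w x y : G}

theorem LS.exists_res (h : LS L Q M A) : ∃ g ∈ 𝐑[2](L), g ∉ M := h.res_or.resolve_left fun e => by
  obtain ⟨x, hx, x0⟩ := SetLike.exists_of_lt (lt_inf_normalizer (isPGroup_of_pResidualOf_eq_bot e) h.um.lt)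
  exact x0 (h.wc x hx.1 (cj_le_of_mem_normalizer hx.2 h.AM))

theorem LV.caseB (h : LV L Q M A V) (hA : A ∈ maxAb 2 L) (VQ : V ≤ Q) (eW : IsElementaryAbelian 2 (ncl V L))
    (quad : ⁅ncl V L, A⁆ ≤ 𝐂(A)) (hz : ncl V L ⊓ 𝐂(Q) ≤ 𝐂(𝐑[2](L))) : ∃ B ≤ Q, Of2 V B := by
  have sh : SH L Q M A V (ncl V L) := ⟨h.toLS, eW, ncl_le VQ h.nQ, rfl, quad, h.cV, h.nV⟩
  set W := ncl V L
  have nW := sh.nW
  have nZ := h.nZ
  have lE := pResidualOf_le 2 L
  have lI := ncl_le_of_le h.AL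
  have e0 := commutator_commutator_pResidualOf (isElemAb_isPGroup eW) nW
  obtain ⟨g, hg, g0⟩ := h.exists_res
  have c0 : ¬ ⁅W, 𝐑[2](L)⁆ ≤ 𝐂(𝐑[2](L)) := fun e => g0 (h.mem_of_norm (lE hg) (centralizer_le_normalizer_of_le sh.VW
    (commutator_eq_bot_iff_le_centralizer'.1 (e0.symm.trans (commutator_eq_bot_iff_le_centralizer.2 e)) hg)))
  have ZE : Zc L A V ≤ 𝐂(𝐑[2](L)) := inf_le_right.trans (centralizer_anti h.res_le)
  have a1 := one_lt_relIndex h.not_le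
  have fin : ∀ D, L ≤ 𝐍(D) → D ≤ Q ⊓ ncl A L → ⁅D, W⁆ ≤ Zc L A V → ¬ ⁅W, 𝐑[2](L)⁆ ≤ 𝐂(D) →
      (Zc L A V).relIndex V ≤ Q.relIndex A * 𝐂(V).relIndex D → ∃ B ≤ Q, Of2 V B := fun D n l c k i => by
    obtain ⟨w, hw, w0⟩ := SetLike.not_le_iff_exists.1 k
    obtain ⟨γ, hγ, γ0⟩ : ∃ γ ∈ D, ⁅γ, w⁆ ≠ 1 := by
      by_contra! e; exact w0 fun γ hγ => commutatorElement_eq_one_iff_mul_comm.1 (e γ hγ)
    obtain ⟨Z', z1, z2, z3⟩ := exists_hyperplane (isElemAb_of_le h.eV inf_le_left) (c (commutator_mem_commutator hγ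
      (commutator_le_left_of_le_normalizer (lE.trans nW) hw))) γ0
    have ZD : Zc L A V ≤ 𝐂(D) := inf_le_right.trans (centralizer_anti (l.trans inf_le_right))
    have cV := (commutator_mono le_rfl sh.VW).trans c
    have i1 := ((sh.toNcl h.VA).star' (Y := W ⊓ secCent D Z') inf_le_left (le_normalizer_inf (lI.trans nW)
      (le_normalizer_secCent (lI.trans n) ((le_centralizer_comm.1 inf_le_right).trans (centralizer_le_normalizer_of_le z1))))
      (by rw [pResidualOf_eq_of_le h.res_le lI]; exact fun e => z2 ((e hw).2.2 γ hγ))).1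
    have i2 := (((relIndex_anti inf_le_left A).trans i1).trans (relIndex_anti le_sup_left V)).trans relIndex_inf_le
    rw [relIndex_eq_one.2 sh.VW, one_mul] at i2
    replace i2 := i2.trans (pair cV (inf_le_left.trans h.abV) ZD z1 z3)
    exact ⟨D, l.trans inf_le_left, of2_of h.eV (l.trans (inf_le_left.trans (h.QM.trans h.nV)))
      (commutator_eq_bot_iff_le_centralizer.2 (by rw [commutator_comm]; exact cV.trans ZD))
      (fun e => (a1.trans_le i2).ne' (relIndex_eq_one.2 e))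
      (((relIndex_anti ZD V).trans i).trans (by rw [pow_two]; exact Nat.mul_le_mul_right _ i2))⟩
  have up : ∀ D, L ≤ 𝐍(D) → D ≤ L → ⁅V, D⁆ ≤ Zc L A V → ⁅D, W⁆ ≤ Zc L A V := fun D n l c => (le_secCent_iff.1 (sh.W_le
    (le_secCent_iff.2 ⟨h.VL.trans nZ, by rwa [commutator_comm]⟩) (le_normalizer_secCent n nZ))).2
  have lQ : ∀ y ∈ L, cj[y] (A ⊓ Q) ≤ Q := fun y hy => cj_le_of_mem_normalizer (h.nQ hy) inf_le_right
  have l0 : ncl (A ⊓ Q) L ≤ Q ⊓ ncl A L := le_inf (ncl_le_iff.2 lQ) (ncl_mono inf_le_left le_rfl)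
  have b2 : ⁅ncl (A ⊓ Q) L, W⁆ ≤ Zc L A V := up _ (le_normalizer_ncl _ _) (l0.trans (inf_le_left.trans h.QL))
    (le_secCent_iff.1 (ncl_le_iff.2 fun y hy => le_secCent_iff.2 ⟨(lQ y hy).trans (h.QL.trans nZ), by
      by_cases e : y ∈ M
      · exact comm_le_of_cent' (cj_le_of_mem_normalizer (le_normalizer_centralizer h.nV e)
          (inf_le_left.trans (le_centralizer_comm.1 h.cV)))
      · exact (le_inf (commutator_le_left_of_le_normalizer ((lQ y hy).trans (h.QM.trans h.nV)))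
          ((commutator_mono sh.VW (cj_mono y inf_le_left)).trans (sh.cj hy).quad)).trans (h.inf_cent hy e)⟩)).2
  have b3 : (Zc L A V).relIndex V ≤ Q.relIndex A * 𝐂(V).relIndex (ncl (A ⊓ Q) L) := by
    have := card_le_of_maxAb (CF.PLocal.conj_mem_maxAb hA (le_normalizer (lE hg))) h.VL h.eV
      (cj_mono g (inf_le_left : A ⊓ Q ≤ A))
    rw [relIndex_cj, inf_relIndex_left, ← card_mul_relIndex (inf_le_left : Zc L A V ≤ V), mul_comm] at this
    exact (Nat.le_of_mul_le_mul_right (this.trans (Nat.mul_le_mul_left _ (card_le_card_of_le (h.inf_cent (lE hg) g0))))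
      Nat.card_pos).trans (Nat.mul_le_mul_left _ (relIndex_mono (cj_le_ncl (lE hg)) _))
  by_cases k : ⁅W, 𝐑[2](L)⁆ ≤ 𝐂(ncl (A ⊓ Q) L)
  swap
  · exact fin _ (le_normalizer_ncl _ _) l0 b2 k b3
  have nW1 := le_normalizer_commutator nW (le_normalizer_pResidualOf 2 L)
  have lW1 := commutator_le_left_of_le_normalizer (lE.trans nW)
  have k1 : ncl (A ⊓ Q) L ≤ 𝐂(W) := ncl_le_centralizer (le_centralizer_comm.1 ((sh.le_sup lW1 nW1 le_rfl fun e =>
    g0 (mem_bot.1 (e.le hg) ▸ one_mem M)).trans (sup_le (h.cV.trans (centralizer_anti inf_le_left))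
      (k.trans (centralizer_anti (le_ncl _ _)))))) nW
  rw [relIndex_eq_one.2 (k1.trans (centralizer_anti sh.VW)), mul_one] at b3
  have b4 : ⁅Q, W⁆ ≤ Zc L A V := by
    have i := b3.trans (sh.star' (inf_le_left.trans sh.VW) nZ fun e => c0 (e.trans ZE)).1
    have e : Zc L A V = V ⊓ (Zc L A V ⊔ ⁅W, Q⁆) := eq_of_le_of_card_le (le_inf inf_le_left le_sup_left) (by
      rw [← inf_relIndex_left V (_ ⊔ _)] at i
      have a := card_mul_relIndex (inf_le_left : Zc L A V ≤ V)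
      have b := card_mul_relIndex (inf_le_left : V ⊓ (Zc L A V ⊔ ⁅W, Q⁆) ≤ V)
      exact Nat.le_of_mul_le_mul_right ((Nat.mul_le_mul_left _ i).trans (b.trans a.symm).le)
        (Nat.pos_of_ne_zero index_ne_zero_of_finite))
    exact up _ h.nQ h.QL ((le_inf (commutator_le_left_of_le_normalizer (h.QM.trans h.nV))
      ((commutator_mono sh.VW le_rfl).trans le_sup_right)).trans e.ge)
  have lQ1 := commutator_le_left_of_le_normalizer (lE.trans h.nQ)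
  refine fin ⁅Q, 𝐑[2](L)⁆ (le_normalizer_commutator h.nQ (le_normalizer_pResidualOf 2 L)) (le_inf lQ1
    ((commutator_le_right_of_le_normalizer (h.QL.trans (le_normalizer_pResidualOf 2 L))).trans h.res_le))
    ((commutator_mono lQ1 le_rfl).trans b4) (fun e => c0 ((le_inf lW1 ?_).trans hz))
    (b3.trans (Nat.le_mul_of_pos_right _ (Nat.pos_of_ne_zero index_ne_zero_of_finite)))
  rw [← e0, ← commutator_eq_bot_iff_le_centralizer, commutator_comm ⁅W, 𝐑[2](L)⁆ 𝐑[2](L)]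
  exact commutator_commutator_eq_bot_of_rotate (commutator_eq_bot_iff_le_centralizer.2 (by
    rw [commutator_comm]; exact ((commutator_mono le_rfl lW1).trans b4).trans ZE)) (commutator_eq_bot_iff_le_centralizer'.2 e)

theorem exists_LS (hT : IsSyl 2 T P) (u : UMax T M P) (hA : IsElementaryAbelian 2 A) (l : A ≤ T) (a0 : ¬ A ≤ 𝐎[2](P)) :
    ∃ g ∈ P, ∃ L ≤ P, 𝐎[2](P) ≤ L ∧ LS L 𝐎[2](L) (L ⊓ M) (cj[g] A) := by
  obtain ⟨L, lL, l1, g, hg, um, gen⟩ := l_lemma' hT u (fun e => a0 (l.trans (pCoreOf_eq_of_isSyl hT e).ge)) l a0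
  have pA := IsPGroup.to_sup_of_normal_right' (isElemAb_isPGroup hA) (isPGroup_pCoreOf 2 L)
    ((le_sup_left.trans l1).trans (le_normalizer_pCoreOf 2 L))
  have k : LS L 𝐎[2](L) (L ⊓ cj[g] M) A := by
    refine ⟨isPGroup_pCoreOf 2 L, le_normalizer_pCoreOf 2 L, hA, um, fun x hx e => ⟨hx, by_contra fun x0 => um.lt.not_ge
      ((gen x hx x0).ge.trans (sup_le (sup_le (le_sup_left.trans um.le) e) (le_sup_right.trans um.le)))⟩, fun a ha e => ?_⟩
    let N := ⨅ y : L, cj[(y : G)] (L ⊓ cj[g] M)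
    have l2 : N ≤ L ⊓ cj[g] M := (iInf_le _ 1).trans (cj_one _).le
    have n : L ≤ 𝐍(N) := le_normalizer_iff_cj.2 fun z hz => le_iInf fun y => cj_le_iff.2 ((iInf_le _ (⟨z, hz⟩⁻¹ * y)).trans
      (cj_mul _ _ _).le)
    exact pCoreOf_le_pCoreOf_of_normal (l2.trans inf_le_left) n ((um.pClosed_of_normal pA l2 n).le_pCoreOf
      ((isElemAb_isPGroup hA).to_le (zpowers_le.2 ha)) (zpowers_le.2 (mem_iInf.2 fun y => e y y.2)) (mem_zpowers a))
  have hg' := inv_mem hg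
  refine ⟨g⁻¹, hg', cj[g⁻¹] L, cj_le_of_mem hg' lL, ?_, ?_⟩
  · rw [← cj_eq_self (le_normalizer_pCoreOf 2 P hg')]; exact cj_mono _ (le_sup_right.trans l1)
  · have := k.map (f := (MulAut.conj g⁻¹).toMonoidHom) (((MonoidHom.ker_eq_bot_iff _).2 (MulAut.conj g⁻¹).injective).le.trans bot_le)
    rwa [cj_pCoreOf, cj_inf, cj_inv_cj] at this

/-- the `qrc`-lemma when `V` is normal in the maximal subgroup over `T` -/
theorem qrcV (hT : IsSyl 2 T H) (u : UMax T M H) (ch : IsCharP 2 H) (eV : IsElementaryAbelian 2 V) (VT : V ≤ T)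
    (nV : M ≤ 𝐍(V)) (nn : ¬ H ≤ 𝐍(V)) (cJ : 𝐉[2](T) ≤ 𝐂(V)) (hJ : ¬ 𝐉[2](T) ≤ 𝐎[2](H)) (z : 𝐑[2](H) ≤ 𝐂(𝐔[2](H))) :
    (¬ V ≤ 𝐎[2](H) ∧ ∃ B ≤ T, Of3 V B) ∨ ∃ B ≤ T, Of2 V B := by
  have MH := u.lt.le
  have sM := hT.mono u.le MH
  have VH := VT.trans hT.le
  have NM : H ⊓ 𝐍(V) ≤ M := u.le_of_ne (le_inf hT.le (u.le.trans nV)) inf_le_left fun e => nn (e.ge.trans inf_le_right)
  have t2 : ∀ B ≤ M, IsPGroup 2 B → Of2 V B → ∃ B ≤ T, Of2 V B := fun B a b c =>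
    let ⟨m, hm, e⟩ := sM.exists_cj_le b a; ⟨_, e, c.cj (nV hm)⟩
  obtain ⟨A, hA, a0⟩ : ∃ A ∈ maxAb 2 T, ¬ A ≤ 𝐎[2](H) := by
    by_contra! e; exact hJ (CF.PLocal.thompson_le_iff.2 e)
  have hA' : A ∈ maxAb 2 H := ⟨hA.1.trans hT.le, hA.2.1, fun B a b =>
    let ⟨g, _, e⟩ := hT.exists_cj_le (isElemAb_isPGroup b) a; (card_cj g B).ge.trans (hA.2.2 _ e (isElemAb_cj g b))⟩
  have cm : ∀ {A g}, A ∈ maxAb 2 H → g ∈ H → cj[g] A ∈ maxAb 2 H := fun a b => CF.PLocal.conj_mem_maxAb a (le_normalizer b)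
  have KA : ∀ A ∈ maxAb 2 H, A ≤ M → A ≤ 𝐂(V) := fun A a b => by
    obtain ⟨m, hm, e⟩ := sM.exists_cj_le (isElemAb_isPGroup a.2.1) b
    have := (le_thompson (CF.PLocal.mem_maxAb_of_le (cm a (MH hm)) e hT.le)).trans cJ
    rwa [← cj_eq_self (le_normalizer_centralizer nV hm), cj_le_cj_iff] at this
  have lv : ∀ {L A M'}, L ≤ H → A ∈ maxAb 2 H → M' = L ⊓ M → LS L 𝐎[2](L) M' A → LV L 𝐎[2](L) M' A V := fun l a e k => by
    subst e
    exact ⟨k, CF.PLocal.le_of_le_centralizer_maxAb a VH (le_centralizer_comm.1 (KA _ a (k.AM.trans inf_le_right)))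
      (isElementaryAbelian_iff.1 eV).2, inf_le_right.trans nV, fun e => k.um.lt.not_ge (le_inf le_rfl ((le_inf l e).trans NM))⟩
  obtain ⟨g, hg, L, lL, oL, k⟩ := exists_LS hT u hA.2.1 hA.1 a0
  have h := lv lL (cm hA' hg) rfl k
  have oo := pCoreOf_le_pCoreOf_of_le lL oL
  by_cases v0 : V ≤ 𝐎[2](L)
  swap
  · obtain ⟨B, a, b, c⟩ := h.caseA (ch.of_pCoreOf_le oL lL) rfl v0
    obtain ⟨m, hm, e⟩ := sM.exists_cj_le b (a.trans inf_le_right)
    exact .inl ⟨fun e => v0 (e.trans oo), _, e, c.cj (nV hm)⟩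
  right
  have QM := h.QM.trans inf_le_right
  have lc : ∀ y ∈ L, cj[y] V ≤ 𝐎[2](L) := fun y hy => cj_le_of_mem_normalizer (h.nQ hy) v0
  by_cases as : ∀ y ∈ L, cj[y] V ≤ 𝐂(V)
  swap
  · push Not at as
    obtain ⟨y, hy, y0⟩ := as
    have k : ∀ y ∈ L, ¬ cj[y] V ≤ 𝐂(V) → 𝐂(cj[y] V).relIndex V ≤ 𝐂(V).relIndex (cj[y] V) → ∃ B ≤ T, Of2 V B := fun y hy a b =>
      t2 _ ((lc y hy).trans QM) (h.pQ.to_le (lc y hy)) (of2_of eV ((lc y hy).trans (QM.trans nV))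
        (commutator_eq_bot_iff_le_centralizer.2 ((commutator_le_right_of_le_normalizer (v0.trans (h.nQV hy))).trans (h.abV' y)))
        a (le_sq_of_le b))
    rcases le_total (𝐂(cj[y] V).relIndex V) (𝐂(V).relIndex (cj[y] V)) with e | e
    · exact k y hy y0 e
    · rw [← idx_cj y⁻¹, ← idx_cj y⁻¹ (cj[y] V), cj_inv_cj] at e
      refine k y⁻¹ (inv_mem hy) (fun c => y0 (le_centralizer_comm.1 ?_)) e
      rwa [← cj_centralizer, le_cj_iff]
  have eW : IsElementaryAbelian 2 (ncl V L) := isElemAb_iSup (fun y => isElemAb_cj _ eV) fun a b => by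
    rw [← cj_centralizer, le_cj_iff, ← cj_mul]; exact as _ (mul_mem (inv_mem b.2) a.2)
  have nW := le_normalizer_ncl V L
  have WQ := ncl_le_iff.2 lc
  obtain ⟨S, hS, lS⟩ := exists_isSyl_ge h.pAQ (sup_le h.AL h.QL)
  have uS : UMax S (L ⊓ M) L := h.um.mono lS (h.um.le_of_ne lS hS.le fun e => h.not_le (h.AL.trans
    (pCoreOf_eq_self (e ▸ hS.isPGroup)).ge))
  have mS := CF.PLocal.mem_maxAb_of_le (cm hA' hg) (le_sup_left.trans lS) (hS.le.trans lL)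
  obtain ⟨A₁, m1, q1, q2⟩ := CF.PLocal.exists_quadratic_maxAb hS.isPGroup (WQ.trans (le_sup_right.trans lS)) eW (hS.le.trans nW)
    fun e => h.nn (h.ncl_sup.trans (sup_le ((ncl_le_centralizer ((le_thompson mS).trans e) nW).trans
      (centralizer_le_normalizer_of_le (le_ncl V L))) (QM.trans nV)))
  have m2 := CF.PLocal.mem_maxAb_of_mem_of_le (cm hA' hg) (le_sup_left.trans lS) (hS.le.trans lL) m1
  obtain ⟨g₁, hg₁, L₁, lL₁, oL₁, k₁⟩ := exists_LS hS uS m1.2.1 m1.1 fun e => q2 (commutator_eq_bot_iff_le_centralizer.2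
    (ncl_le_iff.2 fun y hy => le_centralizer_comm.1 (by
      rw [← cj_centralizer, le_cj_iff]
      exact KA _ (cm m2 (lL (inv_mem hy))) ((cj_le_of_mem_normalizer (h.nQ (inv_mem hy)) e).trans QM))))
  have h₁ := lv (lL₁.trans lL) (cm m2 (lL hg₁)) (by rw [← inf_assoc, inf_eq_left.2 lL₁]) k₁
  have o1 := pCoreOf_le_pCoreOf_of_le lL₁ oL₁
  have lW : ncl V L₁ ≤ ncl V L := ncl_mono le_rfl lL₁
  obtain ⟨B, b1, b2⟩ := h₁.caseB (CF.PLocal.mem_maxAb_of_le (cm m2 (lL hg₁)) h₁.AL (lL₁.trans lL)) (v0.trans o1)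
    (isElemAb_of_le eW lW) ((commutator_mono lW le_rfl).trans (by
      rw [← cj_eq_self (nW hg₁), ← cj_commutator, ← cj_centralizer]
      exact cj_mono _ (commutator_eq_bot_iff_le_centralizer.1 q1))) (by
      have c : ncl V L₁ ⊓ 𝐂(𝐎[2](L₁)) ≤ 𝐂(𝐎[2](H)) := inf_le_right.trans (centralizer_anti (oo.trans o1))
      exact (le_omegaOneCenter (isElemAb_of_le eW (inf_le_left.trans lW)) (ch.le_pCoreOf (inf_le_left.trans (lW.trans
        (WQ.trans (h.QL.trans lL)))) c) c).trans (le_centralizer_comm.1 ((pResidualOf_mono (lL₁.trans lL)).trans z)))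
  exact t2 B (b1.trans (h₁.QM.trans (inf_le_right.trans inf_le_right))) (h₁.pQ.to_le b1) b2

theorem uMax_of_min (hT : IsSyl 2 T ⊤) (TM : T ≤ M) (hH : H ∈ calHMin T M) : UMax T (H ⊓ M) H :=
  ⟨le_inf hH.1.1.2 TM, lt_of_le_not_ge inf_le_left fun e => hH.1.2 (e.trans inf_le_right), fun X a b => le_inf b.le
    (by_contra fun e => b.ne (hH.2 X ⟨⟨fun k => hH.1.1.1 (pCoreOf_eq_bot_iff.1 (le_bot_iff.1 ((pCoreOf_le_pCoreOf_of_le b.le
      ((hT.mono hH.1.1.2 le_top).pCoreOf_le.trans a)).trans (pCoreOf_eq_bot_iff.2 k).le))), a⟩, e⟩ b.le))⟩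

/-- the `qrc`-lemma in parabolic characteristic `2` -/
theorem qrc (pc : ParChar 2 G) (hT : IsSyl 2 T ⊤) (o : 𝐎[2](M) ≠ ⊥) (h0 : T ≤ M₀) (h1 : M₀ ≤ M) (oH : 𝐎[2](H) ≠ ⊥)
    (u : UMax T (H ⊓ M) H) (eV : IsElementaryAbelian 2 V) (lV : V ≤ M₀) (nV : M₀ ≤ 𝐍(V)) (hR : 𝐎[2](M₀) = T ⊓ 𝐂(V))
    (hI : H ⊓ M ≤ 𝐍(𝐑[2](M₀)) ∨ H ⊓ M ≤ 𝐍(V)) : (∃ R₀ ≠ ⊥, R₀ ≤ 𝐎[2](M₀) ∧ M₀ ⊔ H ≤ 𝐍(R₀)) ∨
      (¬ V ≤ 𝐎[2](H) ∧ ∃ B ≤ T, Of3 V B) ∨ ∃ B ≤ T, Of2 V B := by
  by_contra! c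
  obtain ⟨c1, c2, c3⟩ := c
  have TH := u.le.trans inf_le_left
  have sH := hT.mono TH le_top
  have s0 := hT.mono h0 le_top
  have VR : V ≤ 𝐎[2](M₀) := le_pCoreOf (isElemAb_isPGroup eV) lV nV
  have RT := s0.pCoreOf_le
  have nR := le_normalizer_pCoreOf 2 M₀
  have VT := VR.trans RT
  have oM := pCoreOf_le_pCoreOf_of_le h1 ((hT.mono (h0.trans h1) le_top).pCoreOf_le.trans h0)
  have T0 : T ≠ ⊥ := fun e => o (le_bot_iff.1 ((oM.trans RT).trans e.le))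
  have cR : V ≤ 𝐂(𝐎[2](M₀)) := le_centralizer_comm.1 (hR.le.trans inf_le_right)
  have VU : V ≤ 𝐔[2](M) := le_omegaOneCenter eV ((cR.trans (centralizer_anti oM)).trans (pc T M hT (h0.trans h1) o))
    (cR.trans (centralizer_anti oM))
  have cJ : 𝐉[2](T) ≤ 𝐂(V) := by_contra fun e => by
    obtain ⟨A, hA, q1, q2⟩ := CF.PLocal.exists_quadratic_maxAb hT.isPGroup VT eV (h0.trans nV) e
    refine c3 A hA.1 (of2_of eV (hA.1.trans (h0.trans nV)) q1 (mt commutator_eq_bot_iff_le_centralizer'.2 q2) (le_sq_of_le ?_))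
    have := maxAb_off hA VT eV
    rw [← card_mul_relIndex (inf_le_left : V ⊓ 𝐂(A) ≤ V), ← card_mul_relIndex (inf_le_left : A ⊓ 𝐂(V) ≤ A), mul_assoc,
      inf_relIndex_left, inf_relIndex_left, mul_comm (𝐂(V).relIndex A)] at this
    exact Nat.le_of_mul_le_mul_left (Nat.le_of_mul_le_mul_left this Nat.card_pos) Nat.card_pos
  have JR : 𝐉[2](T) ≤ 𝐎[2](M₀) := (le_inf (thompson_le 2 T) cJ).trans hR.ge
  have BR : 𝐁[2](T) ≤ 𝐎[2](M₀) := (inf_le_inf_left T (centralizer_anti (le_omegaJ eV VT (le_centralizer_comm.1 cJ)))).trans hR.ge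
  have cz : H ≤ 𝐂(𝛀[2](T)) := by_contra fun e =>
    let ⟨R₀, a, b, c⟩ := push' pc hT h0 oH u (baumann_eq BR RT ▸ nR.trans (norm_baumann 2 _)) e
    c1 R₀ a (b.trans BR) c
  have Ω0 := omegaOneCenter_ne_bot hT.isPGroup T0
  have hJ : ¬ 𝐉[2](T) ≤ 𝐎[2](H) := fun e => c1 _ (fun k => Ω0 (le_bot_iff.1 ((omega_le_J 2 T).trans k.le))) JR (sup_le
    (CF.PLocal.thompson_eq_of_le JR RT ▸ nR.trans (norm_thompson 2 _))
    (CF.PLocal.thompson_eq_of_le e sH.pCoreOf_le ▸ (le_normalizer_pCoreOf 2 H).trans (norm_thompson 2 _)))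
  have v0 : V ≠ ⊥ := fun e => by
    rw [e, centralizer_bot, inf_top_eq] at hR
    exact c1 _ Ω0 ((omegaOneCenter_le 2 T).trans hR.ge) (sup_le (hR ▸ nR.trans (normalizer_le_normalizer_omegaOneCenter 2 _))
      (cz.trans (centralizer_le_normalizer _)))
  have nU := le_normalizer.trans (norm_U 2 M)
  have lU : ncl V (H ⊓ M) ≤ 𝐔[2](M) := ncl_le VU (inf_le_right.trans nU)
  have UT := (U_le_core 2 M).trans (oM.trans RT)
  have k : 𝐎[2](M₀) ≤ 𝐂(ncl V (H ⊓ M)) ∧ M₀ ≤ 𝐍(ncl V (H ⊓ M)) := by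
    rcases hI with e | e
    swap
    · rw [ncl_eq_self e]; exact ⟨le_centralizer_comm.1 cR, nV⟩
    have lY := pResidualOf_le 2 M₀
    have nY := le_normalizer_pResidualOf 2 M₀
    have nS : 𝐍(𝐑[2](M₀)) ≤ 𝐍(secCent 𝐑[2](M₀) 𝐎[2](𝐑[2](M₀))) :=
      le_normalizer_secCent le_rfl (normalizer_le_normalizer_pCoreOf 2 _)
    have r1 : 𝐎[2](M₀) ≤ secCent 𝐑[2](M₀) 𝐎[2](𝐑[2](M₀)) := le_secCent_iff.2 ⟨((pCoreOf_le 2 _).trans nY).trans
      (normalizer_le_normalizer_pCoreOf 2 _), (le_inf (commutator_le_left_of_le_normalizer ((pCoreOf_le 2 _).trans nY))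
        (commutator_le_right_of_le_normalizer (lY.trans nR))).trans (core_res 2 M₀).ge⟩
    have r2 : T ⊓ (H ⊓ M ⊓ secCent 𝐑[2](M₀) 𝐎[2](𝐑[2](M₀))) = 𝐎[2](M₀) := by
      rw [← inf_assoc, inf_eq_left.2 u.le]
      refine le_antisymm (le_pCoreOf (hT.isPGroup.to_le inf_le_left) (inf_le_left.trans h0) (s0.pResidualOf_sup.ge.trans (sup_le
        (le_normalizer_iff_commutator_le_right.2 ((le_secCent_iff.1 inf_le_right).2.trans (((core_res 2 M₀).le.trans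
          inf_le_right).trans (le_inf RT r1)))) (le_normalizer_inf le_normalizer (h0.trans (nY.trans nS)))))) (le_inf RT r1)
    have nN := le_normalizer_inf (le_normalizer (H := H ⊓ M)) (e.trans nS)
    have sN := r2 ▸ (hT.mono u.le le_top).inf_of_le_normalizer inf_le_left nN
    have := sN.centralizer_le_of_overgroup (isElemAb_isPGroup (isElemAb_omegaOneCenter 2 𝐎[2](M))) (U_ab 2 M)
      ((inf_le_left.trans inf_le_right).trans nU) hT.isPGroup (h0.trans (h1.trans nU)) (u.le.trans nN) (h0.trans nR)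
      ((le_omegaOneCenter (isElemAb_of_le (isElemAb_omegaOneCenter 2 _) (inf_le_left.trans inf_le_left))
        (inf_le_left.trans (inf_le_left.trans UT)) inf_le_right).trans (le_centralizer_comm.1
          ((inf_le_left.trans inf_le_left).trans cz)))
    refine ⟨le_centralizer_comm.1 ((ncl_le_centralizer ((le_inf VU cR).trans this) nN).trans (centralizer_anti sN.le)),
      s0.pResidualOf_sup.ge.trans (sup_le (le_normalizer_iSup fun m => ?_) (u.le.trans (le_normalizer_ncl _ _)))⟩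
    rw [← cj_normalizer, ← cj_eq_self (e m.2)]
    exact cj_mono _ (lY.trans nV)
  have l1 := le_ncl V (H ⊓ M)
  have res : ∀ B ≤ T, B ⊓ 𝐂(V) ≤ 𝐂(ncl V (H ⊓ M)) := fun B hB => ((inf_le_inf_right _ hB).trans hR.ge).trans k.1
  rcases qrcV sH u (pc.isCharP hT TH oH) (isElemAb_of_le (isElemAb_omegaOneCenter 2 _) lU) (lU.trans UT) (le_normalizer_ncl _ _)
    (fun e => c1 _ (mt ncl_eq_bot_iff.1 v0) (lU.trans ((U_le_core 2 M).trans oM)) (sup_le k.2 e))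
    ((JR.trans k.1)) hJ (ffz sH u hJ cz) with ⟨a, B, b, c⟩ | ⟨B, b, c⟩
  · exact c2 (fun e => a (ncl_le e (inf_le_left.trans (le_normalizer_pCoreOf 2 H)))) B b (c.res l1 (res B b))
  · exact c3 B b (c.res l1 (res B b))

end CF.QT
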